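import Cfsg.Agent.H26.Comm
import Cfsg.Agent.H26.Syl
/-! The argument of Sims and Glauberman on a subgroup meeting a conjugate in a normal subgroup of prime index. -/
set_option autoImplicit false
set_option linter.unusedSectionVars false
namespace H118.GS
open Subgroup H26 Cfsg
open scoped commutatorElement Pointwise

variable {G : Type*} [Group G] [Finite G] {p : ℕ}

theorem exists_zpow (hp : p.Prime) {H K : Subgroup G} (hn : K ≤ 𝐍 (H ⊓ K)) (hi : H.relIndex K = p) {y w : G} (hy : y ∈ K)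
    (h1 : y ∉ H) (hw : w ∈ K) : ∃ a : ℤ, (y ^ a)⁻¹ * w ∈ H := by
  have k1 : zpowers y ⊔ H ⊓ K ≤ K := sup_le (zpowers_le.2 hy) inf_le_right
  have k2 := relIndex_mul_relIndex (H ⊓ K) _ K le_sup_right k1
  rw [inf_relIndex_right, hi] at k2
  have k3 : (zpowers y ⊔ H ⊓ K).relIndex K = 1 := by
    rcases (Nat.dvd_prime hp).1 ⟨_, k2.symm⟩ with e | e
    · exact absurd (relIndex_eq_one.1 e (mem_sup_left (mem_zpowers y))).1 h1
    · rw [e] at k2; exact (Nat.mul_eq_left hp.ne_zero).1 k2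
  obtain ⟨_, ⟨a, rfl⟩, b, hb, rfl⟩ := (mem_sup_of_le_normalizer ((zpowers_le.2 hy).trans hn)).1 (relIndex_eq_one.1 k3 hw)
  exact ⟨a, by simpa using hb.1⟩

theorem comm_mem (hp : p.Prime) {H K : Subgroup G} (hn : K ≤ 𝐍 (H ⊓ K)) (hi : H.relIndex K = p) {v w : G} (hv : v ∈ K)
    (hw : w ∈ K) : ⁅v, w⁆ ∈ H := by
  by_cases h1 : v ∈ H
  · rw [commutatorElement_def, mul_assoc, mul_assoc]
    exact mul_mem h1 (mul_assoc w _ _ ▸ (mem_inf.1 (conj_mem_of_mem_normalizer (hn hw) ((H ⊓ K).inv_mem ⟨h1, hv⟩))).1)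
  obtain ⟨a, ha⟩ := exists_zpow hp hn hi hv h1 hw
  have k : (v ^ a)⁻¹ * w ∈ H ⊓ K := mem_inf.2 ⟨ha, mul_mem (inv_mem (zpow_mem hv a)) hw⟩
  have := mul_mem (conj_mem_of_mem_normalizer (hn hv) k) (inv_mem k)
  have := (mem_inf.1 (conj_mem_of_mem_normalizer (hn (zpow_mem hv a)) this)).1
  convert this using 1
  group

/-- the symmetric data of the argument -/
structure S0 (p t : ℕ) (P : ℤ → Subgroup G) (x : ℤ → G) : Prop where
  c1 : ∀ i, ∀ v ∈ P i, ∀ w ∈ P i, ⁅v, w⁆ ∈ P (i + 1)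
  c2 : ∀ i, ∀ v ∈ P i, ∀ w ∈ P i, ⁅v, w⁆ ∈ P (i - 1)
  mem : ∀ i j : ℤ, i ≤ j → j < i + t → x j ∈ P i
  e1 : ∀ i, ∀ w ∈ P i, ∃ a : ℤ, (x i ^ a)⁻¹ * w ∈ P (i + 1)
  e2 : ∀ i, ∀ w ∈ P i, ∃ a : ℤ, (x (i + t - 1) ^ a)⁻¹ * w ∈ P (i - 1)
  tr : ∀ (u : ℤ) w, (∀ i : ℤ, u ≤ i → i ≤ u + t → w ∈ P i) → w = 1
  od : ∀ i, orderOf (x i) = p

/-- the data with the length of the commuting ranges -/
structure SG (p t l : ℕ) (P : ℤ → Subgroup G) (x : ℤ → G) : Prop extends S0 p t P x where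
  cm : ∀ i j : ℤ, i < j + l → j < i + l → Commute (x i) (x j)
  nc : ∀ i, ¬ Commute (x i) (x (i + l))

namespace S0
variable {t : ℕ} {P : ℤ → Subgroup G} {x : ℤ → G} (h : S0 p t P x)
include h

theorem gen {M : Subgroup G} {u : ℤ} (k : ℕ) : ∀ w, (∀ i, u ≤ i → i ≤ u + t - k → w ∈ P i) → k ≤ t →
    (∀ j, u + t - k ≤ j → j < u + t → x j ∈ M) → w ∈ M := by
  induction k with
  | zero => exact fun w h1 _ _ => h.tr u w (by simpa using h1) ▸ one_mem _
  | succ k ih =>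
    intro w h1 h2 h3
    obtain ⟨a, ha⟩ := h.e1 _ w (h1 _ (by omega) le_rfl)
    have := ih _ (fun i i1 i2 => (show i ≤ u + t - (k + 1 : ℕ) ∨ i = _ + 1 by omega).elim (fun i3 =>
      mul_mem (inv_mem (zpow_mem (h.mem _ _ i3 (by omega)) a)) (h1 i i1 i3)) fun e => e ▸ ha) (by omega)
      fun j j1 j2 => h3 j (by omega) j2
    exact (mul_mem_cancel_left (inv_mem (zpow_mem (h3 _ le_rfl (by omega)) a))).1 this

theorem gen' {M : Subgroup G} {u v : ℤ} {w : G} (h0 : u ≤ v) (h1 : ∀ i, u ≤ i → i ≤ v → w ∈ P i)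
    (h3 : ∀ j, v ≤ j → j < u + t → x j ∈ M) : w ∈ M := by
  by_cases k : u + t ≤ v
  · exact h.tr u w (fun i a b => h1 i a (by omega)) ▸ one_mem _
  obtain ⟨n, hn⟩ := Int.eq_ofNat_of_zero_le (show 0 ≤ u + t - v by omega)
  exact h.gen n w (fun i a b => h1 i a (by omega)) (by omega) fun j a b => h3 j (by omega) b

theorem com {u v : ℤ} {w y : G} (h0 : u ≤ v) (h1 : ∀ i, u ≤ i → i ≤ v → w ∈ P i)
    (h3 : ∀ j, v ≤ j → j < u + t → Commute (x j) y) : Commute w y :=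
  mem_centralizer_singleton_iff.1 (h.gen' h0 h1 fun j a b => mem_centralizer_singleton_iff.2 (h3 j a b))

theorem cr {b : ℤ} (h1 : 0 ≤ b) (h2 : b < t) (i : ℤ) (i1 : b - t ≤ i) (i2 : i ≤ 1) : ⁅x 0, x b⁆ ∈ P i := by
  rcases i2.eq_or_lt with rfl | i3
  · exact h.c1 0 _ (h.mem _ _ le_rfl (by omega)) _ (h.mem _ _ h1 (by omega))
  by_cases e : i = 0
  · subst e
    exact commutator_le_of_le_normalizer le_normalizer
      (commutator_mem_commutator (h.mem _ _ le_rfl (by omega)) (h.mem _ _ h1 (by omega)))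
  · simpa using h.c2 (i + 1) _ (h.mem _ 0 (by omega) (by omega)) _ (h.mem _ b (by omega) (by omega))

end S0

namespace SG
variable {t l : ℕ} {P : ℤ → Subgroup G} {x : ℤ → G} (h : SG p t l P x)
include h

theorem rev : SG p t l (fun i => P (l - i - t + 1)) fun j => x (l - j) where
  c1 i v hv w hw := by convert h.c2 _ v hv w hw using 2; ring
  c2 i v hv w hw := by convert h.c1 _ v hv w hw using 2; ring
  mem i j h1 h2 := h.mem _ _ (by omega) (by omega)
  e1 i w hw := by convert h.e2 _ w hw using 6 <;> ring_nf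
  e2 i w hw := by convert h.e1 _ w hw using 6 <;> ring_nf
  tr u w k := h.tr (l - u - 2 * t + 1) w fun i h1 h2 => by
    convert k (l - i - t + 1) (by omega) (by omega) using 2; ring
  od i := h.od _
  cm i j h1 h2 := h.cm _ _ (by omega) (by omega)
  nc i k := h.nc (l - (i + l)) (by convert k.symm using 2; ring)

theorem side (hp : p.Prime) (hl : l < t) : ∃ q : ℤ, (∀ i : ℤ, l - t ≤ i → i ≤ q → ⁅x 0, x l⁆ ∈ P i) ∧ t ≤ q + l := by
  have c1 : ⁅x 0, x l⁆ ≠ 1 := fun e => h.nc 0 (by simpa [commutatorElement_eq_one_iff_commute] using e)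
  obtain ⟨q, ⟨q1, q2⟩, q3⟩ := Int.exists_greatest_of_bdd
    (P := fun q => 1 ≤ q ∧ ∀ i : ℤ, l - t ≤ i → i ≤ q → ⁅x 0, x l⁆ ∈ P i)
    ⟨l, fun z hz => by_contra fun k => c1 (h.tr (l - t) _ fun i a b => hz.2 i a (by omega))⟩
    ⟨1, le_rfl, h.cr (by omega) (by omega)⟩
  have q4 : q < l := by_contra fun k => c1 (h.tr (l - t) _ fun i a b => q2 i a (by omega))
  have q5 : ⁅x 0, x l⁆ ∉ P (q + 1) := fun k => by
    have := q3 (q + 1) ⟨by omega, fun i a b => (show i ≤ q ∨ i = q + 1 by omega).elim (q2 i a) fun e => e ▸ k⟩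
    omega
  refine ⟨q, q2, by_contra fun k => h.nc q ?_⟩
  have d1 := h.cr (b := q + l) (by omega) (by omega)
  have d2 : ∀ j : ℤ, q ≤ j → j ≤ l → Commute ⁅x 0, x (q + l)⁆ (x j) := fun j a b =>
    h.com (by omega) d1 fun i c d => h.cm _ _ (by omega) (by omega)
  have d3 : Commute ⁅x 0, x l⁆ ⁅x 0, x (q + l)⁆ := h.com (by omega) q2 fun j a b => (d2 j a (by omega)).symm
  have d4 : Commute (x (q + l)) (x l) := h.cm _ _ (by omega) (by omega)
  have d5 : Commute ⁅x 0, x l⁆ (x (q + l)) := by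
    have d6 := d2 l (by omega) le_rfl
    generalize x 0 = a at *
    generalize x l = b at *
    generalize x (q + l) = y at *
    have e1 : y * a * y⁻¹ = ⁅a, y⁆⁻¹ * a := by group
    have e2 : y * b * y⁻¹ = b := by rw [d4.eq]; group
    have e3 : y * ⁅a, b⁆ * y⁻¹ = ⁅y * a * y⁻¹, y * b * y⁻¹⁆ := by group
    have e4 : ⁅⁅a, y⁆⁻¹ * a, b⁆ = ⁅a, y⁆⁻¹ * ⁅a, b⁆ * (b * ⁅a, y⁆) * b⁻¹ := by
      generalize ⁅a, y⁆ = d; group
    rw [e1, e2, e4, ← d6.eq, ← d3.inv_right.eq] at e3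
    exact (mul_inv_eq_iff_eq_mul.1 (e3.trans (by group))).symm
  obtain ⟨a, ha⟩ := h.e1 q _ (q2 q (by omega) le_rfl)
  have d7 : Commute ((x q ^ a)⁻¹ * ⁅x 0, x l⁆) (x (q + l)) := h.com (u := l - t) (v := q + 1) (by omega)
    (fun i c d => (show i ≤ q ∨ i = q + 1 by omega).elim
      (fun e => mul_mem (inv_mem (zpow_mem (h.mem _ _ e (by omega)) a)) (q2 i c e)) fun e => e ▸ ha)
    fun j c d => h.cm _ _ (by omega) (by omega)
  have d8 : Commute (x q ^ a) (x (q + l)) := by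
    have := (d7.mul_left d5.inv_left).inv_left
    rwa [mul_inv_cancel_right, inv_inv] at this
  have d9 : x q ^ a ≠ 1 := fun e => q5 (by simpa [e] using ha)
  haveI := Fact.mk hp
  obtain ⟨b, hb⟩ := mem_zpowers_of_prime_card (G := zpowers (x q)) (by rw [Nat.card_zpowers, h.od])
    (g := ⟨_, zpow_mem_zpowers _ a⟩) (g' := ⟨_, mem_zpowers _⟩) fun e => d9 (congrArg Subtype.val e)
  have := d8.zpow_left b
  rwa [show (x q ^ a) ^ b = x q from congrArg Subtype.val hb] at this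

theorem bound (hp : p.Prime) (hl : l < t) : 2 * t ≤ 3 * l := by
  obtain ⟨q, q1, q2⟩ := h.side hp hl
  obtain ⟨r, r1, r2⟩ := h.rev.side hp hl
  have : q + r ≤ l := by_contra fun k => h.nc 0 <| by
    rw [zero_add, ← commutatorElement_eq_one_iff_commute]
    refine h.tr (l - r - t + 1) _ fun i a b => ?_
    by_cases e : l - t ≤ i
    · exact q1 i e (by omega)
    · have := inv_mem (r1 (l - i - t + 1) (by omega) (by omega))
      simp only [commutatorElement_inv, sub_zero, sub_self] at this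
      convert this using 2; ring
  omega

end SG

/-- the conjugates of `P` -/
abbrev PP (P : Subgroup G) (g : G) (i : ℤ) : Subgroup G := cj (g ^ i)⁻¹ P
/-- the intersections of consecutive conjugates -/
def RR (P : Subgroup G) (g : G) (k : ℕ) : Subgroup G := ⨅ j : Fin (k + 1), PP P g (-(j : ℕ))

variable {P : Subgroup G} {g : G}

theorem mem_RR {k : ℕ} {w : G} : w ∈ RR P g k ↔ ∀ i : ℤ, -k ≤ i → i ≤ 0 → w ∈ PP P g i := by
  rw [RR, mem_iInf]
  refine ⟨fun h i a b => ?_, fun h j => h _ (by omega) (by omega)⟩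
  obtain ⟨n, hn⟩ := Int.eq_ofNat_of_zero_le (show 0 ≤ -i by omega)
  have := h ⟨n, by omega⟩
  rwa [← hn, neg_neg] at this

theorem cj_PP (i j : ℤ) : cj (g ^ j)⁻¹ (PP P g i) = PP P g (i + j) := by
  rw [← cj_mul, ← mul_inv_rev, ← zpow_add]

theorem sh {i : ℤ} (j : ℤ) {w : G} : (g ^ j)⁻¹ * w * g ^ j ∈ PP P g (i + j) ↔ w ∈ PP P g i := by
  rw [← cj_PP, ← conj_mem_cj_iff (g := (g ^ j)⁻¹) (x := w), inv_inv]

theorem RR_succ (k : ℕ) : RR P g (k + 1) = PP P g (-k - 1) ⊓ RR P g k := Subgroup.ext fun w => by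
  simp only [mem_inf, mem_RR]
  exact ⟨fun h => ⟨h _ (by omega) (by omega), fun i a b => h i (by omega) b⟩,
    fun h i a b => (show i = -k - 1 ∨ -k ≤ i by omega).elim (fun e => e ▸ h.1) fun e => h.2 i e b⟩

theorem main (hp : p.Prime) (hN : cj g⁻¹ P ≤ 𝐍 (P ⊓ cj g⁻¹ P)) (hi : P.relIndex (cj g⁻¹ P) = p) {n : ℕ} (hn : 1 ≤ n)
    (h1 : ∀ Q ≤ P, P ≤ 𝐍 Q → g ∈ 𝐍 Q → Q = ⊥) (h2 : ∀ w ∈ P, (∀ i : ℕ, i ≤ n → w ∈ 𝐂 (PP P g i)) → w = 1) :
    ∃ t : ℕ, Nat.card P = p ^ t ∧ 1 ≤ t ∧ t ≤ 3 * n ∧ t ≠ 3 * n - 1 := by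
  classical
  haveI := Fact.mk hp
  have P0 : PP P g 0 = P := by rw [PP, zpow_zero, inv_one, cj_one]
  have P1 : PP P g 1 = cj g⁻¹ P := by simp [PP]
  have nL : ∀ i, PP P g i ≤ 𝐍 (PP P g (i - 1) ⊓ PP P g i) := fun i => by
    have := cj_mono (g ^ (i - 1))⁻¹ hN
    rwa [cj_normalizer, cj_inf, ← P1, cj_PP, add_sub_cancel] at this
  have iL : ∀ i, (PP P g (i - 1)).relIndex (PP P g i) = p := fun i => by
    rw [← hi, ← P1, ← relIndex_cj (g ^ (i - 1))⁻¹ P, cj_PP, add_sub_cancel]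
  have R0 : RR P g 0 = P := le_antisymm (fun w hw => P0 ▸ mem_RR.1 hw 0 (by simp) le_rfl)
    fun w hw => mem_RR.2 fun i a b => (show 0 = i by omega) ▸ P0.symm ▸ hw
  have RP : ∀ k, RR P g k ≤ PP P g (-k) := fun k w hw => mem_RR.1 hw _ le_rfl (by omega)
  have ex : ∃ k, RR P g k ≤ PP P g (-k - 1) := by
    by_contra! k
    have : StrictAnti (RR P g) := strictAnti_nat_of_succ_lt fun j => by
      rw [RR_succ]; exact inf_lt_right.2 (k j)
    exact not_injective_infinite_finite _ this.injective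
  obtain ⟨t, ht, hm⟩ : ∃ t, RR P g t ≤ PP P g (-t - 1) ∧ ∀ k < t, ¬ RR P g k ≤ PP P g (-k - 1) :=
    ⟨Nat.find ex, Nat.find_spec ex, fun k => Nat.find_min ex⟩
  have gD : g ∈ 𝐍 (RR P g t) := inv_mem_iff.1 <| mem_normalizer_of_conj_mem fun w hw => mem_RR.2 fun i a b => by
    have := (sh 1).2 ((show i - 1 = -t - 1 ∨ -t ≤ i - 1 by omega).elim (fun e => e ▸ ht hw) fun e => mem_RR.1 hw _ e (by omega))
    simpa using this
  obtain rfl | ⟨s, rfl⟩ : t = 0 ∨ ∃ s, t = s + 1 := t.eq_zero_or_eq_succ_pred.imp_right fun e => ⟨_, e⟩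
  · have := iL 0
    rw [R0] at ht
    rw [P0, relIndex_eq_one.2 (by simpa using ht)] at this
    exact absurd this.symm hp.ne_one
  obtain ⟨x, x1, x2⟩ := SetLike.not_le_iff_exists.1 (hm s (by omega))
  have mem : ∀ i j : ℤ, i ≤ j → j < i + (s + 1 : ℕ) → (g ^ j)⁻¹ * x * g ^ j ∈ PP P g i := fun i j a b => by
    simpa using (sh j).2 (mem_RR.1 x1 (i - j) (by omega) (by omega))
  have nl : ∀ i : ℤ, (g ^ (i + (s + 1 : ℕ) - 1))⁻¹ * x * g ^ (i + (s + 1 : ℕ) - 1) ∉ PP P g (i - 1) := fun i k =>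
    x2 ((sh _).1 (by convert k using 2; push_cast; ring))
  have nr : ∀ i : ℤ, (g ^ i)⁻¹ * x * g ^ i ∉ PP P g (i + 1) := fun i k => by
    have k1 : x ∈ PP P g 1 := (sh _).1 (add_comm i 1 ▸ k)
    have k2 : (g ^ (-1 : ℤ))⁻¹ * x * g ^ (-1 : ℤ) ∈ RR P g (s + 1) := mem_RR.2 fun j a b => by
      simpa using (sh (-1)).2 ((show j + 1 = 1 ∨ j + 1 ≤ 0 by omega).elim (fun e => by rw [e]; exact k1) (mem_RR.1 x1 _ (by omega)))
    have k3 := conj_mem_of_mem_normalizer' gD k2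
    rw [RR_succ] at k3
    exact x2 (by simpa [mul_assoc] using k3.1)
  have nRR : ∀ k, RR P g k ≤ 𝐍 (RR P g (k + 1)) := fun k => by
    rw [RR_succ, ← inf_eq_right.2 (RP k), ← inf_assoc, inf_eq_right.2 (RP k)]
    exact le_normalizer_inf ((RP k).trans (nL _)) le_normalizer
  have PD : ∀ m k, k + m = s + 1 → RR P g k ≤ 𝐍 (RR P g (s + 1)) := fun m => by
    induction m with
    | zero => rintro k rfl; exact le_normalizer
    | succ m ih =>
      intro k e w hw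
      have y1 : (g ^ (-k + (s + 1 : ℕ) - 1 : ℤ))⁻¹ * x * g ^ (-k + (s + 1 : ℕ) - 1 : ℤ) ∈ RR P g k :=
        mem_RR.2 fun i a b => mem _ _ (by omega) (by omega)
      obtain ⟨a, ha⟩ := exists_zpow hp (nL _) (iL _) (RP k y1) (nl _) (RP k hw)
      have := ih (k + 1) (by omega) ((RR_succ k).ge <| mem_inf.2 ⟨ha, mul_mem (inv_mem (zpow_mem y1 a)) hw⟩)
      exact (mul_mem_cancel_left (inv_mem (zpow_mem (mul_mem (mul_mem (inv_mem (zpow_mem gD _)) (nRR s x1))
        (zpow_mem gD _)) a))).1 this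
  have D0 : RR P g (s + 1) = ⊥ := h1 _ (fun w hw => P0 ▸ mem_RR.1 hw 0 (by omega) le_rfl) (R0.ge.trans (PD _ 0 (zero_add _))) gD
  have cd : ∀ m k, k + m = s + 1 → Nat.card (RR P g k) = p ^ m := fun m => by
    induction m with
    | zero => rintro k rfl; rw [D0, card_bot, pow_zero]
    | succ m ih =>
      intro k e
      have k1 := relIndex_mul_relIndex _ _ _ (le_sup_right (a := RR P g k)) (sup_le (RP k) (inf_le_right (a := PP P g (-k - 1))))
      rw [inf_relIndex_right, iL, relIndex_sup_of_le_normalizer ((RP k).trans (nL _)), ← inf_relIndex_right,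
        inf_assoc, inf_eq_right.2 (RP k), inf_relIndex_right] at k1
      rw [← card_mul_relIndex (PP P g (-k - 1)), ← RR_succ, ih (k + 1) (by omega), pow_succ,
        ((Nat.dvd_prime hp).1 ⟨_, k1.symm⟩).resolve_left fun e => hm k (by omega) (relIndex_eq_one.1 e)]
  have cP : Nat.card P = p ^ (s + 1) := R0 ▸ cd _ 0 (zero_add _)
  have iR : ∀ i, (PP P g (i + 1)).relIndex (PP P g i) = p := fun i => by
    have k1 := card_mul_relIndex (PP P g (i + 1)) (PP P g i)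
    have k2 := card_mul_relIndex (PP P g (i + 1 - 1)) (PP P g (i + 1))
    rw [iL, add_sub_cancel_right, inf_comm, card_cj] at k2
    rw [card_cj, ← k2] at k1
    exact Nat.eq_of_mul_eq_mul_left Nat.card_pos k1
  have nR : ∀ i, PP P g i ≤ 𝐍 (PP P g (i + 1) ⊓ PP P g i) := fun i =>
    (normal_subgroupOf_iff_le_normalizer inf_le_right).1 (normal_of_index_eq_minFac_card (by
      rw [card_cj, cP, hp.pow_minFac (by omega), ← relIndex, inf_relIndex_right, iR]))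
  have x0 : x ≠ 1 := fun e => x2 (e ▸ one_mem _)
  have S : S0 p (s + 1) (PP P g) fun j => (g ^ j)⁻¹ * x * g ^ j :=
    ⟨fun i _ a _ b => comm_mem hp (nR i) (iR i) a b, fun i _ a _ b => comm_mem hp (nL i) (iL i) a b, mem,
      fun i _ a => exists_zpow hp (nR i) (iR i) (mem _ _ le_rfl (by omega)) (nr i) a,
      fun i _ a => exists_zpow hp (nL i) (iL i) (mem _ _ (by omega) (by omega)) (nl i) a, fun u w k => by
        have : (g ^ (-u - (s + 1 : ℕ)))⁻¹ * w * g ^ (-u - (s + 1 : ℕ)) ∈ RR P g (s + 1) := mem_RR.2 fun i a b => by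
          convert (sh (-u - (s + 1 : ℕ))).2 (k (i + u + (s + 1 : ℕ)) (by omega) (by omega)) using 2; ring
        rwa [D0, mem_bot, mul_assoc, inv_mul_eq_one, right_eq_mul] at this, fun i => by
        have := orderOf_dvd_card_of_mem x1
        rw [cd 1 s rfl, pow_one] at this
        have e := (MulAut.conj (g ^ i)⁻¹).orderOf_eq x
        rw [MulAut.conj_apply, inv_inv] at e
        exact e.trans (((Nat.dvd_prime hp).1 this).resolve_left fun e => x0 (orderOf_eq_one_iff.1 e))⟩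
  generalize hX : (fun j : ℤ => (g ^ j)⁻¹ * x * g ^ j) = X at S
  have shX : ∀ i j k, Commute (X i) (X j) → Commute (X (i + k)) (X (j + k)) := fun i j k c => by
    have := c.map (MulAut.conj (g ^ k)⁻¹)
    rw [← hX] at this ⊢
    convert this using 1 <;> simp only [MulAut.conj_apply] <;> group
  have key : ∀ j : ℤ, 0 ≤ j → j < (s + 1 : ℕ) → ¬ ∀ i : ℤ, 0 ≤ i → i < (s + 1 : ℕ) + n → Commute (X i) (X j) := fun j a b c =>
    hp.ne_one ((S.od j).symm.trans (orderOf_eq_one_iff.2 (h2 _ (P0 ▸ S.mem 0 j a (by omega)) fun i hi w hw =>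
      (S.com (u := i) le_rfl (fun k a b => (show (i : ℤ) = k by omega) ▸ hw) fun k a b => c k (by omega) (by omega)).eq)))
  have ex2 : ∃ l : ℕ, ¬ Commute (X 0) (X l) := by
    by_contra! k
    refine key 0 le_rfl (by omega) fun i a _ => ?_
    obtain ⟨m, rfl⟩ := Int.eq_ofNat_of_zero_le a
    exact (k m).symm
  obtain ⟨l, l1, l2⟩ : ∃ l : ℕ, ¬ Commute (X 0) (X l) ∧ ∀ k < l, Commute (X 0) (X (k : ℕ)) :=
    ⟨Nat.find ex2, Nat.find_spec ex2, fun k hk => not_not.1 (Nat.find_min ex2 hk)⟩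
  have cm : ∀ i j : ℤ, i ≤ j → j < i + l → Commute (X i) (X j) := fun i j a b => by
    obtain ⟨m, hm⟩ := Int.eq_ofNat_of_zero_le (show 0 ≤ j - i by omega)
    simpa [← hm] using shX _ _ i (l2 m (by omega))
  have T : SG p (s + 1) l (PP P g) X := ⟨S, fun i j a b => (le_total i j).elim (cm i j · b) fun c => (cm j i c a).symm,
    fun i c => l1 (by simpa using shX _ _ (-i) c)⟩
  refine ⟨s + 1, cP, by omega, ?_⟩
  by_cases hl : l < s + 1
  · have k1 := T.bound hp hl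
    have l0 : l ≠ 0 := by rintro rfl; exact l1 (Commute.refl _)
    have k2 : 2 * l ≤ s + 1 + n := by_contra fun k =>
      key (l - 1) (by omega) (by omega) fun i a b => T.cm _ _ (by omega) (by omega)
    omega
  · have k2 : s + 1 ≤ n := by_contra fun k => key s (by omega) (by omega) fun i a b => T.cm _ _ (by omega) (by omega)
    omega

end H118.GS
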