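import Cfsg.Agent.H20.Pw0

/-! Piece N5 of the product action theorem: degree five. -/

set_option autoImplicit false
set_option linter.unusedSectionVars false

namespace H118.Pw

open Equiv Function H20.Pw

theorem modf {α : Type} [Finite α] (f : α → α) (h : ∀ x, f^[5] x = x) :
    Nat.card α ≡ Nat.card {x // f x = x} [MOD 5] := by
  classical
  have := Fintype.ofFinite α
  have : Fact (Nat.Prime 5) := ⟨Nat.prime_five⟩
  have h1 : (show Function.End α from f) ^ 5 ^ 1 = 1 := by
    funext x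
    exact h x
  have := Equiv.Perm.card_fixedPoints_modEq h1
  rw [Nat.card_eq_fintype_card, Nat.card_eq_fintype_card]
  exact this

theorem fixdvd {G : Type} [Group G] [Finite G] (K : Subgroup G) (e : G) (he : e ^ 5 = 1)
    (hn : ∀ k ∈ K, e * k * e⁻¹ ∈ K) (h : 5 ∣ Nat.card K) :
    5 ∣ Nat.card ↥(K ⊓ Subgroup.centralizer {e}) := by
  let f : K → K := fun k => ⟨e * k * e⁻¹, hn _ k.2⟩
  have hf : ∀ n (x : K), ((f^[n] x : K) : G) = e ^ n * x * (e ^ n)⁻¹ := by
    intro n
    induction n with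
    | zero => intro x; simp
    | succ n ih => intro x; rw [Function.iterate_succ_apply', pow_succ']; simp only [f, ih]; group
  have h1 := modf f fun x => Subtype.ext (by rw [hf, he]; simp)
  have h2 : Nat.card {x // f x = x} = Nat.card ↥(K ⊓ Subgroup.centralizer {e}) := by
    refine Nat.card_congr ⟨fun x => ⟨x.1.1, x.1.2, ?_⟩, fun x => ⟨⟨x.1, x.2.1⟩, ?_⟩, fun _ => rfl, fun _ => rfl⟩
    · have := congrArg Subtype.val x.2
      simp only [f] at this
      exact Subgroup.mem_centralizer_singleton_iff.2 (mul_inv_eq_iff_eq_mul.1 this).symm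
    · have := Subgroup.mem_centralizer_singleton_iff.1 x.2.2
      exact Subtype.ext (by simp only [f]; rw [← this]; simp)
  rw [h2] at h1
  exact (Nat.modEq_zero_iff_dvd.1 (h1.symm.trans (Nat.modEq_zero_iff_dvd.2 h)))

theorem cyc {U : Type} [Fintype U] [DecidableEq U] (h : Fintype.card U = 5) :
    ∃ c ∈ alternatingGroup U, c ^ 5 = 1 ∧ (∀ u, c u ≠ u) ∧ ∀ u v, ∃ n : ℕ, (c ^ n) u = v := by
  have e : U ≃ ZMod 5 := Fintype.equivOfCardEq (by simp [h])
  let c : Perm U := (e.trans (Equiv.addRight 1)).trans e.symm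
  have hc : ∀ (n : ℕ) u, (c ^ n) u = e.symm (e u + n) := by
    intro n
    induction n with
    | zero => intro u; simp
    | succ n ih => intro u; rw [pow_succ', Perm.mul_apply, ih]; simp [c, add_assoc]
  have h5 : c ^ 5 = 1 := Equiv.ext fun u => by
    rw [hc]
    have : ((5 : ℕ) : ZMod 5) = 0 := by decide
    rw [this]; simp
  refine ⟨c, ?_, h5, fun u hu => ?_, fun u v => ⟨(e v - e u).val, by rw [hc]; simp⟩⟩
  · have : c = (c ^ 3) ^ 2 := by rw [← pow_mul, show 3 * 2 = 5 + 1 from rfl, pow_succ, h5, one_mul]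
    rw [Perm.mem_alternatingGroup, this, map_pow, Int.units_sq]
  · have := hc 1 u
    rw [pow_one, hu] at this
    have h2 := congrArg e this
    simp at h2
    exact absurd h2 (by decide)

theorem pN5 (hR : PRel) (h3 : P3) (h6 : P6) : PN5 := by
  intro ι U _ _ _ _ H hy h5 i d g hg hd
  let M : Subgroup (Perm (ι → U)) :=
    { carrier := {g | g ∈ H ∧ ∀ f, f i = d → g f = f}
      one_mem' := ⟨H.one_mem, fun _ _ => rfl⟩
      mul_mem' := fun {a b} ha hb => ⟨H.mul_mem ha.1 hb.1, fun f hf => by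
        rw [Perm.mul_apply, hb.2 f hf, ha.2 f hf]⟩
      inv_mem' := fun {a} ha => ⟨H.inv_mem ha.1, fun f hf => by
        rw [Perm.inv_eq_iff_eq, ha.2 f hf]⟩ }
  have hM : ∀ x, Nm H i x → ∀ k ∈ M, x * k * x⁻¹ ∈ M := fun x hx k hk =>
    ⟨H.mul_mem (H.mul_mem hx.1 hk.1) (H.inv_mem hx.1), fun f hf => by
      have : (x⁻¹ f) i = d := by rw [← hx.2.1 (x⁻¹ f)]; simpa using hf
      rw [Perm.mul_apply, Perm.mul_apply, hk.2 _ this]; simp⟩
  by_contra hne
  have hj : ∃ f j, j ≠ i ∧ g f j ≠ f j := by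
    by_contra hh
    push Not at hh
    exact hne (h3 ι U H hy i g hg hh)
  obtain ⟨f0, j0, hj0, hf0⟩ := hj
  have gM : g ∈ M := ⟨hg, hd⟩
  let r : (ι → U) → (ι → U) → Prop := fun f f' => ∃ k ∈ M, k f = f'
  have hr : Equivalence r := ⟨fun f => ⟨1, M.one_mem, rfl⟩,
    fun ⟨k, hk, e⟩ => ⟨k⁻¹, M.inv_mem hk, by rw [← e]; simp⟩,
    fun ⟨k, hk, e⟩ ⟨l, hl, e'⟩ => ⟨l * k, M.mul_mem hl hk, by rw [Perm.mul_apply, e, e']⟩⟩
  have hri : ∀ x, Nm H i x → ∀ f g, r f g → r (x f) (x g) := fun x hx f f' ⟨k, hk, e⟩ =>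
    ⟨x * k * x⁻¹, hM x hx k hk, by simp [e]⟩
  have tr := hR ι U H hy i j0 r hr hri f0 (g f0) ⟨g, gM, rfl⟩ hj0 hf0.symm
  obtain ⟨c, ca, c5, cf, ct⟩ := cyc h5
  have cN : ∀ j, j ≠ i → Nm H i (co j c) := fun j hj =>
    ⟨hy.ev j c ca, fun f => co_ne hj.symm c f, fun σ => co_comm hj c σ⟩
  have cc5 : ∀ j : ι, co j c ^ 5 = 1 := fun j => by rw [← map_pow, c5, map_one]
  have d5 : 5 ∣ Nat.card M := by
    let O := MulAction.orbit M (g f0)
    have hO : ∀ x ∈ O, co j0 c x ∈ O := by
      rintro x ⟨k, rfl⟩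
      obtain ⟨l, hl, e⟩ := hr.trans (tr (g f0) (co j0 c (g f0)) rfl (co_ne hj0.symm c _))
        (hri _ (cN j0 hj0) (g f0) (k.1 (g f0)) ⟨k.1, k.2, rfl⟩)
      exact ⟨⟨l, hl⟩, e⟩
    let F : O → O := fun x => ⟨co j0 c x.1, hO _ x.2⟩
    have hF : ∀ n (x : O), (F^[n] x).1 = (co j0 c ^ n) x.1 := by
      intro n
      induction n with
      | zero => intro x; rfl
      | succ n ih => intro x; rw [Function.iterate_succ_apply', pow_succ', Perm.mul_apply, ← ih]
    have h1 := modf F fun x => Subtype.ext (by rw [hF, cc5]; rfl)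
    have : IsEmpty {x // F x = x} := ⟨fun x => cf _ (co_fix.1 (congrArg Subtype.val x.2))⟩
    rw [Nat.card_of_isEmpty (α := {x // F x = x})] at h1
    refine (Nat.modEq_zero_iff_dvd.1 h1).trans ?_
    have h2 : (MulAction.stabilizer M (g f0)).index = Nat.card O := by
      rw [MulAction.index_stabilizer, Nat.card_coe_set_eq]
    rw [← h2]
    exact Subgroup.index_dvd_card _
  have ind : ∀ s : Finset ι, i ∉ s →
      5 ∣ Nat.card ↥(M ⊓ Subgroup.centralizer ((fun j => co j c) '' (s : Set ι))) := by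
    intro s
    induction s using Finset.induction_on with
    | empty =>
      intro _
      have e : M ⊓ Subgroup.centralizer ((fun j => co j c) '' ((∅ : Finset ι) : Set ι)) = M :=
        inf_eq_left.2 fun x _ y hy => by simp at hy
      rwa [e]
    | insert j s hj ih =>
      intro hi
      have hji : j ≠ i := fun e => hi (by simp [e])
      have m : co j c ∈ Subgroup.centralizer ((fun j => co j c) '' (s : Set ι)) := by
        rintro _ ⟨l, hl, rfl⟩
        exact co_comm (fun e : l = j => hj (by rw [← e]; exact hl)) c c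
      have := fixdvd (M ⊓ Subgroup.centralizer ((fun j => co j c) '' (s : Set ι))) (co j c) (cc5 j)
        (fun k hk => Subgroup.mem_inf.2 ⟨hM _ (cN j hji) k hk.1,
          Subgroup.mul_mem _ (Subgroup.mul_mem _ m hk.2) (Subgroup.inv_mem _ m)⟩)
        (ih fun h => hi (Finset.mem_insert_of_mem h))
      · have e : M ⊓ Subgroup.centralizer ((fun j => co j c) '' ((insert j s : Finset ι) : Set ι)) =
            M ⊓ Subgroup.centralizer ((fun j => co j c) '' (s : Set ι)) ⊓ Subgroup.centralizer {co j c} := by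
          ext x
          simp only [Subgroup.mem_inf, Subgroup.mem_centralizer_iff, Finset.coe_insert, Set.image_insert_eq,
            Set.mem_insert_iff, Set.mem_singleton_iff, forall_eq_or_imp, forall_eq]
          tauto
        rwa [e]
  have : Fact (Nat.Prime 5) := ⟨Nat.prime_five⟩
  obtain ⟨⟨t, tM, tC⟩, ht⟩ := exists_prime_orderOf_dvd_card' 5 (ind (Finset.univ.erase i) (by simp))
  have t5 : t ^ 5 = 1 := by
    have := congrArg Subtype.val (pow_orderOf_eq_one (⟨t, tM, tC⟩ : ↥(M ⊓ _)))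
    rw [ht] at this
    exact this
  have t1 : t ≠ 1 := fun e => by
    subst e
    have : orderOf (1 : ↥(M ⊓ Subgroup.centralizer ((fun j => co j c) ''
      ((Finset.univ.erase i : Finset ι) : Set ι)))) = 5 := ht
    simp at this
  have tc : ∀ j, j ≠ i → ∀ n : ℕ, Commute (co j (c ^ n)) t := fun j hj n => by
    rw [map_pow]
    exact Commute.pow_left (tC _ ⟨j, by simp [hj], rfl⟩) n
  have sl : ∀ s : Finset ι, i ∉ s → ∀ f f' : ι → U, (∀ j ∉ s, f j = f' j) → t f i = t f' i := by
    intro s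
    induction s using Finset.induction_on with
    | empty => intro _ f f' h; rw [funext fun j => h j (by simp)]
    | insert j s hj ih =>
      intro hi f f' h
      have hji : j ≠ i := fun e => hi (by simp [e])
      obtain ⟨n, hn⟩ := ct (f j) (f' j)
      rw [← ih (fun h => hi (Finset.mem_insert_of_mem h)) (co j (c ^ n) f) f' fun l hl => ?_]
      · rw [← Perm.mul_apply, ← (tc j hji n).eq, Perm.mul_apply, co_ne hji.symm]
      · by_cases e : l = j
        · subst e; rw [co_same, hn]
        · rw [co_ne e]; exact h l (by simp [e, hl])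
  let α : U → U := fun u => t (fun _ => u) i
  have ha : ∀ f, t f i = α (f i) := fun f =>
    sl (Finset.univ.erase i) (by simp) f _ fun j hj => by
      have : j = i := by simpa using hj
      rw [this]
  have han : ∀ n f, (t ^ n) f i = α^[n] (f i) := by
    intro n
    induction n with
    | zero => intro f; rfl
    | succ n ih => intro f; rw [pow_succ', Perm.mul_apply, ha, ih, Function.iterate_succ_apply']
  have h1 := modf α fun u => by rw [← han 5 (fun _ => u), t5]; rfl
  have ad : α d = d := by simp only [α]; rw [tM.2 _ rfl]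
  have aid : ∀ u, α u = u := by
    have : Nonempty {x // α x = x} := ⟨⟨d, ad⟩⟩
    have p1 : 0 < Nat.card {x // α x = x} := Nat.card_pos
    rw [Nat.card_eq_fintype_card, h5] at h1
    have p2 : 5 ≤ Nat.card {x // α x = x} :=
      Nat.le_of_dvd p1 (Nat.modEq_zero_iff_dvd.1 (h1.symm.trans (by decide)))
    have hb : Function.Bijective (Subtype.val : {x // α x = x} → U) :=
      Subtype.val_injective.bijective_of_nat_card_le (by rw [Nat.card_eq_fintype_card, h5]; exact p2)
    intro u
    obtain ⟨x, rfl⟩ := hb.2 u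
    exact x.2
  refine t1 (Equiv.ext fun f => ?_)
  by_cases hf : f i = d
  · exact tM.2 f hf
  · obtain ⟨b, hb⟩ : ∃ b, b ∉ ({d, f i} : Finset U) := by
      have : ({d, f i} : Finset U).card ≤ 2 := Finset.card_le_two
      obtain ⟨b, -, hb⟩ := Finset.exists_mem_notMem_of_card_lt_card
        (s := ({d, f i} : Finset U)) (t := Finset.univ) (by rw [Finset.card_univ, h5]; omega)
      exact ⟨b, hb⟩
    simp only [Finset.mem_insert, Finset.mem_singleton, not_or] at hb
    have := h6 ι U H hy i d (f i) b (f i) b hf hb.1 (Ne.symm hb.2) (Ne.symm hb.2) t tM.1 tM.2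
      (fun f' h => by rw [ha, aid, h]) (fun f' h => by rw [ha, aid, h]) f rfl
    rw [this]; simp

end H118.Pw
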