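import Cfsg.Agent.H18.Bender2
import Cfsg.Agent.H26.Zsig
import Mathlib.LinearAlgebra.Matrix.GeneralLinearGroup.Card

/-! Faithful modules over the field with two elements: counting (`cnt`, `orb`), `pair` (a product of two involutions),
`prime_dvd`, `unip`, `card_dvd_gl`, `abel_dim` (a 2-group acting semiregularly on an abelian group of odd order). -/

set_option autoImplicit false
set_option linter.unusedSectionVars false

namespace H118.SM
open Subgroup Cfsg H18 Module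

section count
variable {G X : Type*} [Group G] (P : Subgroup G) (f : G → X → X) (h1 : ∀ x, f 1 x = x)
  (h2 : ∀ g h x, f (g * h) x = f g (f h x))
include h1 h2

theorem orb (x : X) {A : Subgroup G} (h : ∀ g ∈ P, f g x = x ↔ g ∈ A) :
    {y | ∃ g ∈ P, f g x = y}.ncard = A.relIndex P := by
  letI : MulAction P X := { smul := fun g x => f g x, one_smul := h1, mul_smul := fun g k => h2 g k }
  have : MulAction.stabilizer P x = A.subgroupOf P := Subgroup.ext fun g => h g g.2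
  rw [relIndex, ← this, MulAction.index_stabilizer]
  exact congrArg _ (Set.ext fun y => ⟨fun ⟨g, a, b⟩ => ⟨⟨g, a⟩, b⟩, fun ⟨g, b⟩ => ⟨g, g.2, b⟩⟩)

theorem cnt {s : Set X} (hs : s.Finite) (hi : ∀ g ∈ P, ∀ x ∈ s, f g x ∈ s) {A : Subgroup G}
    (h : ∀ x ∈ s, ∀ g ∈ P, f g x = x ↔ g ∈ A) : A.relIndex P ∣ s.ncard := by
  classical
  letI : MulAction P s :=
    { smul := fun g x => ⟨f g x, hi g g.2 x x.2⟩
      one_smul := fun x => Subtype.ext (h1 x)
      mul_smul := fun g k x => Subtype.ext (h2 g k x) }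
  have := hs.to_subtype
  have := Fintype.ofFinite (MulAction.orbitRel.Quotient P s)
  rw [← Nat.card_coe_set_eq, Nat.card_congr (MulAction.selfEquivSigmaOrbits P s), Nat.card_sigma]
  refine Finset.dvd_sum fun w _ => ?_
  have : MulAction.stabilizer P w.out = A.subgroupOf P :=
    Subgroup.ext fun g => Subtype.ext_iff.trans (h _ w.out.2 g g.2)
  rw [Nat.card_coe_set_eq, ← MulAction.index_stabilizer, this, relIndex]
end count

variable {G V : Type*} [Group G] [AddCommGroup V] [Module (ZMod 2) V] (ρ : G →* End (ZMod 2) V)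
  {x y u v t s : G} {w : V} {A B R S : Subgroup G}

theorem add_self (w : V) : w + w = 0 := by
  rw [← two_smul (ZMod 2) w, show (2 : ZMod 2) = 0 from rfl, zero_smul]
theorem neg_self (w : V) : -w = w := neg_eq_of_add_eq_zero_left (add_self w)
theorem rm (g h : G) (w : V) : ρ (g * h) w = ρ g (ρ h w) := by rw [map_mul]; rfl
theorem r1 (w : V) : ρ 1 w = w := by rw [map_one]; rfl

theorem rinv (h : ρ x w = 0) : w = 0 := by
  have := congrArg (ρ x⁻¹) h
  rwa [← rm, inv_mul_cancel, r1, map_zero] at this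

/-- the stabilizer of a vector -/
def stb (w : V) : Subgroup G where
  carrier := {g | ρ g w = w}
  one_mem' := r1 ρ w
  mul_mem' := fun {a b} ha hb => by
    show ρ (a * b) w = w
    rw [rm, hb, ha]
  inv_mem' := fun {a} ha => by
    show ρ a⁻¹ w = w
    conv_lhs => rw [← show ρ a w = w from ha]
    rw [← rm, inv_mul_cancel, r1]

/-- the fixed points of a subgroup -/
def fx (A : Subgroup G) : Submodule (ZMod 2) V where
  carrier := {w | A ≤ stb ρ w}
  zero_mem' := fun a _ => map_zero (ρ a)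
  add_mem' := fun {a b} ha hb g hg => by
    show ρ g (a + b) = a + b
    rw [map_add, ha hg, hb hg]
  smul_mem' := fun c a ha g hg => by
    show ρ g (c • a) = c • a
    rw [map_smul, ha hg]

theorem cop (ho : Odd (orderOf x)) (h : ρ x (ρ x w - w) = ρ x w - w) : ρ x w = w := by
  have k : ∀ i : ℕ, ρ (x ^ i) w = w + i • (ρ x w - w) := fun i => by
    induction i with
    | zero => rw [pow_zero, r1, zero_smul, add_zero]
    | succ i ih => rw [pow_succ', rm, ih, map_add, map_nsmul, h, succ_nsmul]; abel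
  obtain ⟨m, hm⟩ := ho
  have := k (orderOf x)
  rw [pow_orderOf_eq_one, r1, hm, succ_nsmul, two_mul, add_nsmul, add_self, zero_add, left_eq_add] at this
  exact sub_eq_zero.1 this

variable [Module.Finite (ZMod 2) V]

theorem card_sub (W : Submodule (ZMod 2) V) : Nat.card W = 2 ^ finrank (ZMod 2) W := by
  rw [Module.natCard_eq_pow_finrank (K := ZMod 2), Nat.card_zmod]
theorem fin_sub (W : Submodule (ZMod 2) V) : (W : Set V).Finite := by
  have : Finite V := Module.finite_of_finite (ZMod 2)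
  exact Set.toFinite _

theorem half (u2 : u * u = 1) {W : Submodule (ZMod 2) V} (h : ∀ w ∈ W, ρ u w ∈ W) :
    ∃ b, b + finrank (ZMod 2) ↥(W ⊓ LinearMap.ker (ρ u - 1)) = finrank (ZMod 2) W ∧
      b ≤ finrank (ZMod 2) ↥(W ⊓ LinearMap.ker (ρ u - 1)) ∧ b ≤ finrank (ZMod 2) (LinearMap.range (ρ u - 1)) := by
  have := LinearMap.finrank_range_add_finrank_ker ((ρ u - 1).domRestrict W)
  rw [LinearMap.range_domRestrict, LinearMap.ker_domRestrict, ← Submodule.finrank_map_subtype_eq W (Submodule.comap _ _),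
    Submodule.map_comap_subtype] at this
  refine ⟨_, this, Submodule.finrank_mono ?_, Submodule.finrank_mono LinearMap.map_le_range⟩
  rintro _ ⟨w, hw, rfl⟩
  refine ⟨sub_mem (h w hw) hw, ?_⟩
  show ρ u (ρ u w - w) - (ρ u w - w) = 0
  rw [map_sub, ← rm, u2, r1, sub_eq_zero, ← neg_self (w - _), neg_sub]

theorem pair (u2 : u * u = 1) (v2 : v * v = 1) (ho : Odd (orderOf (u * v))) :
    ∃ a, finrank (ZMod 2) (LinearMap.range (ρ (u * v) - 1)) = 2 * a ∧
      a ≤ finrank (ZMod 2) (LinearMap.range (ρ u - 1)) := by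
  have uu : ∀ z, u * (u * z) = z := fun z => by rw [← mul_assoc, u2, one_mul]
  have vv : ∀ z, v * (v * z) = z := fun z => by rw [← mul_assoc, v2, one_mul]
  obtain ⟨a, a1, a2, a3⟩ := half ρ u2 (W := LinearMap.range (ρ (u * v) - 1)) (by
    rintro _ ⟨w, rfl⟩
    refine ⟨-ρ v w, ?_⟩
    show ρ (u * v) (-ρ v w) - -ρ v w = ρ u (ρ (u * v) w - w)
    rw [map_neg, map_sub, ← rm, ← rm, uu, mul_assoc, v2, mul_one]; abel)
  obtain ⟨b, b1, b2, -⟩ := half ρ v2 (W := LinearMap.range (ρ (u * v) - 1)) (by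
    rintro _ ⟨w, rfl⟩
    refine ⟨-ρ (v * (u * v)) w, ?_⟩
    show ρ (u * v) (-ρ (v * (u * v)) w) - -ρ (v * (u * v)) w = ρ v (ρ (u * v) w - w)
    rw [map_neg, map_sub, ← rm, ← rm, mul_assoc, vv, uu]; abel)
  have k := Submodule.finrank_sup_add_finrank_inf_eq (LinearMap.range (ρ (u * v) - 1) ⊓ LinearMap.ker (ρ u - 1))
    (LinearMap.range (ρ (u * v) - 1) ⊓ LinearMap.ker (ρ v - 1))
  have k1 : LinearMap.range (ρ (u * v) - 1) ⊓ LinearMap.ker (ρ u - 1) ⊓
      (LinearMap.range (ρ (u * v) - 1) ⊓ LinearMap.ker (ρ v - 1)) = ⊥ := by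
    refine eq_bot_iff.2 ?_
    rintro _ ⟨⟨⟨w, rfl⟩, c⟩, -, d⟩
    have c : ρ u (ρ (u * v) w - w) = ρ (u * v) w - w := sub_eq_zero.1 c
    have d : ρ v (ρ (u * v) w - w) = ρ (u * v) w - w := sub_eq_zero.1 d
    exact sub_eq_zero.2 (cop ρ ho (by rw [rm ρ u v (_ - _), d, c]))
  have k2 := Submodule.finrank_mono (sup_le inf_le_left inf_le_left :
    LinearMap.range (ρ (u * v) - 1) ⊓ LinearMap.ker (ρ u - 1) ⊔
      (LinearMap.range (ρ (u * v) - 1) ⊓ LinearMap.ker (ρ v - 1)) ≤ _)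
  rw [k1, finrank_bot] at k
  exact ⟨a, by omega, a3⟩

variable (hρ : Function.Injective ρ)
include hρ

theorem rank_pos (h : x ≠ 1) : 0 < finrank (ZMod 2) (LinearMap.range (ρ x - 1)) :=
  Nat.pos_of_ne_zero fun e => h (hρ (by
    rw [Submodule.finrank_eq_zero, LinearMap.range_eq_bot, sub_eq_zero] at e
    rw [e, map_one]))

theorem prime_dvd [Finite G] {r N : ℕ} (hr : r.Prime) (hN : orderOf (2 : ZMod r) = N) (h0 : N ≠ 0) (hx : orderOf x = r) :
    N ∣ finrank (ZMod 2) (LinearMap.range (ρ x - 1)) ∧ 0 < finrank (ZMod 2) (LinearMap.range (ρ x - 1)) ∧ Odd r := by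
  have ho : Odd r := hr.eq_two_or_odd'.resolve_left fun e => h0 (by
    subst e; rw [← hN, show (2 : ZMod 2) = 0 from rfl, orderOf_zero])
  refine ⟨?_, rank_pos ρ hρ fun e => hr.one_lt.ne' (by rw [← hx, e, orderOf_one]), ho⟩
  have := cnt (zpowers x) (fun g w => ρ g w) (r1 ρ) (rm ρ)
    (s := (LinearMap.range (ρ x - 1) : Set V) \ {0}) ((fin_sub _).diff) (A := ⊥) ?_ ?_
  · rw [relIndex_bot_left, Nat.card_zpowers, hx, Set.ncard_diff_singleton_of_mem (zero_mem _), ← Nat.card_coe_set_eq] at this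
    rw [← hN, orderOf_dvd_iff_pow_eq_one]
    have e := (ZMod.natCast_eq_zero_iff _ _).2 this
    rw [show Nat.card ↑(LinearMap.range (ρ x - 1) : Set V) = _ from card_sub _, Nat.cast_sub Nat.one_le_two_pow] at e
    simpa [sub_eq_zero] using e
  · rintro g hg _ ⟨⟨w, rfl⟩, h⟩
    refine ⟨⟨ρ g w, ?_⟩, fun e => h ?_⟩
    · obtain ⟨k, rfl⟩ := hg
      show ρ x (ρ (x ^ k) w) - ρ (x ^ k) w = ρ (x ^ k) (ρ x w - w)
      rw [map_sub, ← rm, ← rm, (Commute.zpow_self x k).eq]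
    · exact rinv ρ e
  · rintro _ ⟨⟨w, rfl⟩, h⟩ g hg
    refine ⟨fun e => ?_, fun e => by rw [mem_bot.1 e, r1]⟩
    obtain c | c := eq_bot_or_eq_of_prime (X := zpowers x) (by rwa [Nat.card_zpowers, hx])
      (inf_le_left (b := stb ρ ((ρ x - 1) w)))
    · exact c.le ⟨hg, e⟩
    · exact (h (sub_eq_zero.2 (cop ρ (hx ▸ ho) (c.ge (mem_zpowers x)).2))).elim

theorem unip {a b : ℕ} (h : s ^ 2 ^ b = 1) (ha : finrank (ZMod 2) V ≤ 2 ^ a) : s ^ 2 ^ a = 1 := by
  have z : ∀ φ : End (ZMod 2) V, φ + φ = 0 := fun φ => LinearMap.ext fun w => add_self (φ w)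
  have k : ∀ n : ℕ, (ρ s - 1) ^ 2 ^ n = ρ (s ^ 2 ^ n) - 1 := fun n => by
    induction n with
    | zero => simp
    | succ n ih =>
      rw [pow_succ, pow_mul, ih, pow_mul, pow_two, pow_two, map_mul]
      generalize ρ (s ^ 2 ^ n) = g
      rw [show (g - 1) * (g - 1) = g * g - 1 - (g + g) + (1 + 1) by noncomm_ring, z, z, sub_zero, add_zero]
  have k1 : (ρ s - 1) ^ finrank (ZMod 2) V = 0 := LinearMap.ker_eq_top.1 (top_le_iff.1
    (le_trans (by rw [k, h, map_one, sub_self, LinearMap.ker_zero]) (End.ker_pow_le_ker_pow_finrank (ρ s - 1) (2 ^ b))))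
  refine hρ ?_
  rw [map_one, ← sub_eq_zero, ← k, ← Nat.sub_add_cancel ha, pow_add, k1, mul_zero]

theorem card_dvd_gl : Nat.card G ∣ ∏ i : Fin (finrank (ZMod 2) V), (2 ^ finrank (ZMod 2) V - 2 ^ (i : ℕ)) := by
  have := Matrix.card_GL_field (𝔽 := ZMod 2) (finrank (ZMod 2) V)
  rw [ZMod.card] at this
  rw [← this]
  exact card_dvd_of_injective ((Units.mapEquiv (LinearMap.toMatrixAlgEquiv
    (finBasis (ZMod 2) V)).toMulEquiv).toMonoidHom.comp ρ.toHomUnits) fun a b e =>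
      hρ (congrArg Units.val ((Units.mapEquiv (LinearMap.toMatrixAlgEquiv
        (finBasis (ZMod 2) V)).toMulEquiv).injective e))

omit hρ

/-- `A` is maximal among the subgroups of `R` having more fixed points than `R` -/
structure Mx (R A : Subgroup G) : Prop where
  le : A ≤ R
  ne : ¬ fx ρ A ≤ fx ρ R
  mx : ∀ y ∈ R, y ∉ A → ∀ w ∈ fx ρ A, ρ y w = w → w ∈ fx ρ R

variable {ρ}
theorem fx_anti (h : A ≤ B) : fx ρ B ≤ fx ρ A := fun _ hw => h.trans hw
theorem fx_cj (hw : w ∈ fx ρ A) (g : G) : ρ g w ∈ fx ρ (cj g A) := fun a ha => by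
  show ρ a (ρ g w) = ρ g w
  rw [← rm, show a * g = g * (g⁻¹ * a * g) by group, rm, hw (mem_cj.1 ha)]
theorem fx_cj' (g : G) : fx ρ (cj g A) = (fx ρ A).map (ρ g) := by
  refine le_antisymm (fun w hw => ⟨ρ g⁻¹ w, by simpa using fx_cj hw g⁻¹, ?_⟩) ?_
  swap
  · rw [← rm, mul_inv_cancel, r1]
  · rintro _ ⟨w, hw, rfl⟩
    exact fx_cj hw g
theorem rank_cj (g : G) : finrank (ZMod 2) (fx ρ (cj g A)) = finrank (ZMod 2) (fx ρ A) := by
  rw [fx_cj']
  exact (Submodule.equivMapOfInjective _ (fun a b e => sub_eq_zero.1 (rinv ρ (by rw [map_sub, e, sub_self])))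
    _).finrank_eq.symm
theorem Mx.conj (h : Mx ρ R A) (hs : s ∈ N(R)) : Mx ρ R (cj s A) := by
  have e := cj_eq_self hs
  have e' := cj_eq_self (inv_mem hs)
  refine ⟨e ▸ cj_mono h.le, fun c => h.ne fun w hw => ?_, fun y hy h1 w hw c => ?_⟩
  · have := fx_cj (c (fx_cj hw s)) s⁻¹
    rwa [e', ← rm, inv_mul_cancel, r1] at this
  · have := fx_cj (h.mx (s⁻¹ * y * s) (mem_cj.1 (e.ge hy)) (fun c => h1 (mem_cj.2 c)) (ρ s⁻¹ w)
      (by simpa using fx_cj hw s⁻¹) (by rw [← rm, mul_inv_cancel_right, rm, c])) s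
    rwa [e, ← rm, mul_inv_cancel, r1] at this

theorem exists_mx [Finite G] (hρ : Function.Injective ρ) (h : R ≠ ⊥) : ∃ A, Mx ρ R A := by
  obtain ⟨A, ⟨a1, a2⟩, a3⟩ := Set.Finite.exists_maximal (s := {A | A ≤ R ∧ ¬ fx ρ A ≤ fx ρ R}) (Set.toFinite _)
    ⟨⊥, bot_le, fun c => h (eq_bot_iff.2 fun x hx => hρ (LinearMap.ext fun w => by
      rw [map_one]; exact c (bot_le (a := stb ρ w)) hx))⟩
  refine ⟨A, a1, a2, fun y hy h1 w hw c => by_contra fun e => h1 (a3 (y := A ⊔ zpowers y)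
    ⟨sup_le a1 (zpowers_le.2 hy), fun k => e (k (sup_le hw (zpowers_le.2 c)))⟩ le_sup_left (mem_sup_right (mem_zpowers y)))⟩

variable (ab : Abel R) (ho : Odd (Nat.card R))
include ab

theorem fx_inv (h : A ≤ R) (hy : y ∈ R) (hw : w ∈ fx ρ A) : ρ y w ∈ fx ρ A := fun a ha => by
  show ρ a (ρ y w) = ρ y w
  rw [← rm, mem_C.1 (ab hy) a (h ha), rm, hw ha]

include ho
theorem indep (F : Finset (Subgroup G)) (hF : ∀ A ∈ F, Mx ρ R A) (hB : Mx ρ R B) (h : B ∉ F) :
    (fx ρ R ⊔ F.sup (fx ρ)) ⊓ fx ρ B ≤ fx ρ R := by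
  classical
  induction F using Finset.induction_on with
  | empty => simp
  | insert A F hA ih =>
    have m := hF A (Finset.mem_insert_self _ _)
    have m' := fun C hC => hF C (Finset.mem_insert_of_mem hC)
    obtain ⟨a, ha, a1⟩ := SetLike.not_le_iff_exists.1 fun c : A ≤ B => by
      obtain ⟨y, hy, y1⟩ := SetLike.not_le_iff_exists.1 fun d : B ≤ A => h (le_antisymm c d ▸ Finset.mem_insert_self _ _)
      exact hB.ne fun w hw => m.mx y (hB.le hy) y1 w (fx_anti c hw) (hw hy)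
    rintro w ⟨hw, hw'⟩
    rw [Finset.sup_insert, sup_left_comm] at hw
    obtain ⟨w1, h1, w2, h2, e⟩ := Submodule.mem_sup.1 hw
    have aR := m.le ha
    have : ρ a w2 ∈ fx ρ R ⊔ F.sup (fx ρ) := (sup_le (fun z hz => Submodule.mem_sup_left (fx_inv ab le_rfl aR hz))
      (Finset.sup_le fun C hC z hz => Submodule.mem_sup_right (Finset.le_sup (f := fx ρ) hC
        (fx_inv ab (m' C hC).le aR hz))) : _ ≤ (fx ρ R ⊔ F.sup (fx ρ)).comap (ρ a)) h2
    refine hB.mx a aR a1 w hw' (cop ρ (H5.odd_order_of_mem ho aR) (ih m' (fun c => h (Finset.mem_insert_of_mem c))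
      ⟨?_, sub_mem (fx_inv ab hB.le aR hw') hw'⟩ aR))
    rw [← e, map_add, h1 ha, add_sub_add_left_eq_sub]
    exact sub_mem this h2

theorem rank_sup {e : ℕ} (F : Finset (Subgroup G))
    (hF : ∀ A ∈ F, Mx ρ R A ∧ finrank (ZMod 2) (fx ρ A) = finrank (ZMod 2) (fx ρ R) + e) :
    finrank (ZMod 2) ↥(fx ρ R ⊔ F.sup (fx ρ)) = finrank (ZMod 2) (fx ρ R) + F.card * e := by
  classical
  induction F using Finset.induction_on with
  | empty => rw [Finset.sup_empty, sup_bot_eq, Finset.card_empty, zero_mul, add_zero]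
  | insert A F hA ih =>
    have m := hF A (Finset.mem_insert_self _ _)
    have m' := fun C hC => hF C (Finset.mem_insert_of_mem hC)
    have := Submodule.finrank_sup_add_finrank_inf_eq (fx ρ R ⊔ F.sup (fx ρ)) (fx ρ A)
    rw [le_antisymm (indep ab ho F (fun C hC => (m' C hC).1) m.1 hA) (le_inf le_sup_left (fx_anti m.1.le)), ih m', m.2] at this
    rw [Finset.sup_insert, sup_comm (fx ρ A), ← sup_assoc, Finset.card_insert_of_notMem hA, add_mul]
    omega

omit ab ho in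
theorem arith {r e i : ℕ} (h1 : r ∣ 2 ^ e - 1) (h2 : 2 ^ i ∣ r - 1) (h3 : 1 < r) (h4 : 0 < e) : 2 * i ≤ e := by
  obtain ⟨b, hb⟩ := h1
  obtain ⟨a, ha⟩ := h2
  have p1 : 1 < 2 ^ e := Nat.one_lt_two_pow h4.ne'
  have a0 : 0 < a := Nat.pos_of_ne_zero fun c => by rw [c] at ha; omega
  have b0 : 0 < b := Nat.pos_of_ne_zero fun c => by rw [c] at hb; omega
  obtain rfl : r = 2 ^ i * a + 1 := by omega
  have e1 : 2 ^ e = 2 ^ i * (a * b) + (b + 1) := by rw [← Nat.sub_add_cancel p1.le, hb]; ring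
  have i1 : 2 ^ i ≤ 2 ^ e := by rw [e1]; nlinarith [Nat.mul_pos a0 b0, Nat.two_pow_pos i]
  have i2 : 2 ^ i ≤ b + 1 := Nat.le_of_dvd b.succ_pos ((Nat.dvd_add_right (dvd_mul_right _ _)).1
    (e1 ▸ pow_dvd_pow 2 ((Nat.pow_le_pow_iff_right one_lt_two).1 i1)))
  refine (Nat.pow_le_pow_iff_right one_lt_two).1 ?_
  rw [e1, two_mul, pow_add]
  generalize 2 ^ i = c at *
  nlinarith [Nat.mul_le_mul_left c i2, Nat.mul_le_mul_left (c * b) a0]

theorem abel_dim [Finite G] (hρ : Function.Injective ρ) (h0 : R ≠ ⊥) (hn : S ≤ N(R)) {k : ℕ} (hk : Nat.card S = 2 ^ k)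
    (sr : ∀ s ∈ S, ∀ y ∈ R, s * y * s⁻¹ = y → s = 1 ∨ y = 1) (ht : t ∈ S) (t1 : t ≠ 1)
    (hi : ∀ y ∈ R, t * y * t⁻¹ = y⁻¹) : 2 * k ≤ finrank (ZMod 2) V := by
  obtain ⟨A, m⟩ := exists_mx hρ h0
  obtain ⟨e, he⟩ := Nat.exists_eq_add_of_le (Submodule.finrank_mono (fx_anti (ρ := ρ) m.le))
  have e0 : 0 < e := Nat.pos_of_ne_zero fun c => m.ne (Submodule.eq_of_le_of_finrank_eq (fx_anti m.le) (by omega)).ge
  obtain ⟨i, hi1, hi2⟩ := (Nat.dvd_prime_pow Nat.prime_two).1 (hk ▸ card_dvd_of_le (inf_le_left : S ⊓ N(A) ≤ S))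
  have i0 : i ≠ 0 := fun c => t1 (mem_bot.1 ((card_eq_one.1 (show Nat.card ↥(S ⊓ N(A)) = 1 by rw [hi2, c, pow_zero])).le
    ⟨ht, mem_N_of_finite fun a ha => by rw [hi a (m.le ha)]; exact inv_mem ha⟩))
  have c1 := orb S (fun g B => cj g B) (fun _ => cj_one) (fun _ _ _ => cj_mul) A (A := N(A)) fun g _ => mem_N_iff_cj.symm
  have c2 : N(A).relIndex S = 2 ^ (k - i) := by
    have := card_mul_relIndex' (A := N(A)) (B := S)
    rw [inf_comm, hi2, hk, ← Nat.add_sub_cancel' hi1, pow_add] at this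
    exact Nat.eq_of_mul_eq_mul_left (Nat.two_pow_pos i) this
  have c3 := rank_sup ab ho (Set.toFinite {B | ∃ g ∈ S, cj g A = B}).toFinset (e := e) fun B hB => by
    obtain ⟨g, hg, rfl⟩ := (Set.Finite.mem_toFinset _).1 hB
    exact ⟨m.conj (hn hg), by rw [rank_cj, he]⟩
  rw [← Set.ncard_eq_toFinset_card, c1, c2] at c3
  have c4 := cnt R (fun g w => ρ g w) (r1 ρ) (rm ρ) (s := (fx ρ A : Set V) \ fx ρ R) (fin_sub _).diff
    (fun g hg w hw => ⟨fx_inv ab m.le hg hw.1, fun c => hw.2 (by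
      have := fx_inv ab le_rfl (inv_mem hg) c
      rwa [← rm, inv_mul_cancel, r1] at this)⟩) (A := A)
    fun w hw g hg => ⟨fun c => by_contra fun d => hw.2 (m.mx g hg d w hw.1 c), fun c => hw.1 c⟩
  have c5 := cnt (S ⊓ N(A)) (fun g y => g * y * g⁻¹) (by simp) (fun _ _ _ => by group) (s := (R : Set G) \ A)
    (Set.toFinite _) (fun g hg y hy => ⟨conj_mem_N (hn hg.1) hy.1, fun c => hy.2 (by
      simpa [mul_assoc] using conj_mem_N' hg.2 c)⟩) (A := ⊥) fun y hy g hg =>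
      ⟨fun c => (sr g hg.1 y hy.1 c).resolve_right fun d => hy.2 (d ▸ one_mem A), fun c => by simp [mem_bot.1 c]⟩
  rw [Set.ncard_diff (fx_anti m.le) (fin_sub _), ← Nat.card_coe_set_eq, ← Nat.card_coe_set_eq,
    show Nat.card ↑(fx ρ A : Set V) = _ from card_sub _, show Nat.card ↑(fx ρ R : Set V) = _ from card_sub _, he, pow_add,
    ← Nat.mul_sub_one] at c4
  rw [Set.ncard_diff m.le (Set.toFinite _), ← Nat.card_coe_set_eq, ← Nat.card_coe_set_eq, relIndex_bot_left, hi2] at c5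
  have c6 : Nat.card R = Nat.card A * A.relIndex R := (card_mul_relIndex m.le).symm
  have o1 : Odd (A.relIndex R) := ho.of_dvd_nat (c6 ▸ dvd_mul_left _ _)
  have o2 : Odd (Nat.card A) := ho.of_dvd_nat (c6 ▸ dvd_mul_right _ _)
  have c7 := arith ((Nat.Coprime.pow_right _ (Nat.coprime_two_right.2 o1)).dvd_of_dvd_mul_left c4)
    ((Nat.Coprime.pow_left _ (Nat.coprime_two_left.2 o2)).dvd_of_dvd_mul_left (by
      rw [Nat.mul_sub_one, ← c6]; exact c5)) (lt_of_le_of_ne o1.pos fun c => m.ne (fx_anti (relIndex_eq_one.1 c.symm))) e0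
  have c8 := Submodule.finrank_le (fx ρ R ⊔ (Set.toFinite {B | ∃ g ∈ S, cj g A = B}).toFinset.sup (fx ρ))
  obtain ⟨j, rfl⟩ := Nat.exists_eq_add_of_le hi1
  rw [Nat.add_sub_cancel_left] at c3
  have := j.lt_two_pow_self
  nlinarith [Nat.mul_le_mul this c7, Nat.mul_le_mul_left j (Nat.pos_of_ne_zero i0)]

end H118.SM
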