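import Cfsg.Agent.H18.SM1
import Cfsg.Agent.H1.BGCop

/-! Faithful `𝔽₂`-modules of groups with a strongly embedded subgroup: `rank1` (2-rank one), `rank2`, `main`. -/

set_option autoImplicit false
set_option linter.unusedSectionVars false

namespace H118.SM
open Subgroup Cfsg H18 Module H9 H5

set_option synthInstance.maxSize 4000 in
set_option synthInstance.maxHeartbeats 400000 in
theorem num : ∀ D < 10, ∀ r < 256, ∀ j < 6, (2 * r + 3) ^ (j + 2) ∣ ∏ i ∈ Finset.range D, (2 ^ D - 2 ^ i) →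
    j < 5 ∧ ∀ k < 6, D < 2 * k → ¬ 2 ^ k ∣ (2 * r + 3) ^ (j + 1) - 1 := by decide +kernel

theorem num' {D r j k : ℕ} (hr : r.Prime) (ho : Odd r) (hk : k < 6) (hD : D < 2 * k) (hj : j ≠ 0)
    (h : r ^ (j + 1) ∣ ∏ i : Fin D, (2 ^ D - 2 ^ (i : ℕ))) : ¬ 2 ^ k ∣ r ^ j - 1 := by
  rw [Fin.prod_univ_eq_prod_range fun i => 2 ^ D - 2 ^ i] at h
  obtain ⟨i, hi, h1⟩ := (Prime.dvd_finset_prod_iff hr.prime _).1 ((dvd_pow_self r j.succ_ne_zero).trans h)
  have h2 := Nat.le_of_dvd (Nat.sub_pos_of_lt (Nat.pow_lt_pow_right one_lt_two (Finset.mem_range.1 hi))) h1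
  replace h2 := h2.trans (Nat.sub_le _ _)
  have h3 : 2 ^ D ≤ 2 ^ 9 := Nat.pow_le_pow_right two_pos (by omega)
  obtain ⟨m, rfl⟩ := ho
  have := hr.one_lt
  obtain ⟨m, rfl⟩ : ∃ n, m = n + 1 := ⟨m - 1, by omega⟩
  obtain ⟨j, rfl⟩ := Nat.exists_eq_succ_of_ne_zero hj
  rw [show 2 * (m + 1) + 1 = 2 * m + 3 by ring] at *
  by_cases c : j < 6
  · exact (num D (by omega) m (by omega) j c h).2 k hk hD
  · exact absurd (num D (by omega) m (by omega) 5 (by omega) ((pow_dvd_pow _ (by omega)).trans h)).1 (lt_irrefl _)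

variable {G V : Type*} [Group G] [Finite G] [AddCommGroup V] [Module (ZMod 2) V] [Module.Finite (ZMod 2) V]
  {ρ : G →* End (ZMod 2) V} {x y u v t s z : G} {H R S : Subgroup G} {k : ℕ}

theorem exists_z (h1 : prank 2 (⊤ : Subgroup G) ≤ 1) (pS : PiGrp {2} S) (h0 : S ≠ ⊥) :
    ∃ z ∈ S, z * z = 1 ∧ z ≠ 1 ∧ (∀ s ∈ S, s ≠ 1 → z ∈ zpowers s) ∧ z ∈ C(S) := by
  obtain ⟨z, hz, z2, z1⟩ := exists_inv_of_even (even_iff_two_dvd.2 (pS.inf_left.dvd_card (pS.nil.Z_ne_bot h0)))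
  refine ⟨z, hz.1, z2, z1, fun s hs s1 => ?_, hz.2⟩
  obtain ⟨v, hv, v2, v1⟩ := exists_inv_of_even (even_iff_two_dvd.2 ((pS.of_le (zpowers_le.2 hs)).dvd_card
    (ne_bot_of_mem (mem_zpowers s) s1)))
  rwa [← by_contra fun e : ¬ v = z => h1.not_gt (prank_of_pair (mem_top v) (mem_top z) v1 z1 e v2 z2
    (mem_C.1 hz.2 v (zpowers_le.2 hs hv)))]

theorem big_elt (hk : Nat.card S = 2 ^ k) (z1 : z ≠ 1) (hz : ∀ s ∈ S, s ≠ 1 → z ∈ zpowers s) :
    ∃ s ∈ S, ∃ b, orderOf s = 2 ^ b ∧ k ≤ b + 1 := by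
  have key : ∀ v ∈ S, orderOf v = 2 → v = z := fun v hv v2 => by
    obtain ⟨v2, v1⟩ := orderOf_eq_two.1 v2
    exact ((mem_zpowers_inv v2 (hz v hv v1)).resolve_left z1).symm
  obtain c | ⟨n, x, y, h⟩ := isCyclic_or_qData (P := S) (IsPGroup.of_card hk) fun v hv w hw v2 w2 => by
    rw [key v hv v2, key w hw w2]
  · obtain ⟨g, hg⟩ := c.exists_ofOrder_eq_natCard
    exact ⟨g, g.2, k, by rw [orderOf_coe, hg, hk], by omega⟩
  · refine ⟨x, h.xmem, n + 2, by rw [h.ordx]; ring, (Nat.pow_right_injective le_rfl ?_).le⟩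
    show 2 ^ k = 2 ^ (n + 2 + 1)
    rw [← hk, h.card_eq]; ring

theorem rank1 (hρ : Function.Injective ρ) (hH : IsStronglyEmbedded H) (h1 : prank 2 (⊤ : Subgroup G) ≤ 1)
    (hk : Nat.card S = 2 ^ k) : 2 * k ≤ finrank (ZMod 2) V := by
  rcases Nat.eq_zero_or_pos k with rfl | k0
  · exact Nat.zero_le _
  have pS : PiGrp {2} S := piGrp_of_isPGroup Nat.prime_two (IsPGroup.of_card hk)
  obtain ⟨z, hz, z2, z1, zs, zc⟩ := exists_z h1 pS fun e => by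
    rw [e, card_bot] at hk
    exact (Nat.one_lt_two_pow k0.ne').ne hk
  have h := SA.of_se hH
  obtain ⟨a, ha⟩ := h.fix z z2 z1
  have nO : ¬ O[{2}ᶜ]((⊤ : Subgroup G)) ≤ C1(z) := fun c => hH.1 (eq_top_iff.2 fun g _ => by
    have k : ∀ g : G, g • a = a := fun g => by
      obtain ⟨n, hn, e⟩ := rank_one h1 z2 z1 (mem_top z) (mem_top g)
      exact h.C1_le z2 z1 ha (by simpa using mul_mem (c hn) e)
    obtain ⟨l, hl⟩ := h.trans a ((1 : G) : G ⧸ H)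
    rw [k] at hl
    exact (St_one (H := H)).le (hl ▸ k g))
  have cop : H1.Cop S O[{2}ᶜ]((⊤ : Subgroup G)) :=
    H1.cop_of_pi (le_top.trans pcore_nml.norm) pS pcore_pi (.inl pS.solv)
  obtain ⟨r, hr, R, hR, nR, cR⟩ : ∃ r, r.Prime ∧ ∃ R, Hall {r} R O[{2}ᶜ]((⊤ : Subgroup G)) ∧ S ≤ N(R) ∧ ¬ R ≤ C1(z) := by
    by_contra! c
    exact nO (le_of_sylows fun r hr _ => (cop.exists_sylow hr).imp fun R e => ⟨e.1, c r hr R e.1 e.2⟩)
  have ho := odd_card_of_le odd_O hR.le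
  have zi : z⁻¹ = z := inv_eq_of_mul_eq_one_right z2
  have sr : ∀ s ∈ S, ∀ y, s * y * s⁻¹ = y → s = 1 ∨ y ∈ C1(z) := fun s hs y e => or_iff_not_imp_left.2 fun s1 =>
    mem_C1.2 (mem_C1.1 ((zpowers_le.2 (mem_C1.2 (mul_inv_eq_iff_eq_mul.1 e)) : _ ≤ C1(y)) (zs s hs s1))).symm
  by_cases c : R ⊓ C1(z) = ⊥
  · have iv := inverted_of_cent z2 ho (fun x hx => tN z2 (nR hz) hx) fun x hx e => c.le ⟨hx, (mem_C1_inv z2).2 e⟩
    exact abel_dim (abel_of_inverted z2 iv) ho hρ (fun e => cR (e.le.trans bot_le)) nR hk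
      (fun s hs y hy e => (sr s hs y e).imp id fun d => c.le ⟨hy, d⟩) hz z1 (by rwa [zi])
  by_contra! lt
  obtain ⟨j, hj⟩ := (hR.pi.relIndex (A := C1(z))).eq_pow relIndex_ne_zero
  have j0 : j ≠ 0 := fun e => cR (relIndex_eq_one.1 (by rw [hj, e, pow_zero]))
  have d1 : r ^ (j + 1) ∣ Nat.card R := by
    rw [← card_mul_relIndex' (A := C1(z)), hj, pow_succ', inf_comm]
    exact Nat.mul_dvd_mul_right (hR.pi.inf_left.dvd_card c) _
  have d2 := cnt S (fun g y => g * y * g⁻¹) (by simp) (fun _ _ _ => by group) (s := {k ∈ R | z * k * z = k⁻¹} \ {1})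
    (Set.toFinite _) (fun g hg y hy => ⟨⟨conj_mem nR hg hy.1.1, by
      have e := mem_C.1 zc g hg
      rw [show z * (g * y * g⁻¹) * z = (z * g) * y * (z⁻¹ * g)⁻¹ by group, zi, ← e,
        show g * z * y * (g * z)⁻¹ = g * (z * y * z⁻¹) * g⁻¹ by group, zi, hy.1.2]; group⟩, conj_ne hy.2 g⟩) (A := ⊥)
    fun y hy g hg => ⟨fun c => (sr g hg y c).resolve_right fun d => hy.2 (eq_one_of_odd (odd_order_of_mem ho hy.1.1)
      (mul_eq_one_iff_eq_inv.2 (((mem_C1_inv z2).1 d).symm.trans hy.1.2))), fun c => by simp [mem_bot.1 c]⟩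
  rw [relIndex_bot_left, hk, Set.ncard_diff_singleton_of_mem (show (1 : G) ∈ {k ∈ R | z * k * z = k⁻¹} from
    ⟨one_mem R, by simp [z2]⟩), ← relIndex_C1_eq z2 ho (nR hz),
    hj] at d2
  refine num' hr (ho.of_dvd_nat ((dvd_pow_self r j.succ_ne_zero).trans d1)) (by_contra fun k6 => ?_) lt j0
    (d1.trans (R.card_subgroup_dvd_card.trans (card_dvd_gl ρ hρ))) d2
  obtain ⟨s, hs, b, hb, b1⟩ := big_elt hk z1 zs
  obtain ⟨m, rfl⟩ : ∃ m, k = m + 6 := ⟨k - 6, by omega⟩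
  have := orderOf_dvd_of_pow_eq_one (unip ρ hρ (a := m + 4) (hb ▸ pow_orderOf_eq_one s) (by
    have := m.lt_two_pow_self
    rw [pow_add]; omega))
  rw [hb, Nat.pow_dvd_pow_iff_le_right one_lt_two] at this
  omega

theorem rank_pow (hu : u ∈ zpowers s) : LinearMap.range (ρ u - 1) ≤ LinearMap.range (ρ s - 1) := by
  obtain ⟨n, rfl⟩ := mem_powers_iff_mem_zpowers.2 hu
  rintro _ ⟨w, rfl⟩
  show ρ (s ^ n) w - w ∈ _
  induction n with
  | zero => rw [pow_zero, r1, sub_self]; exact zero_mem _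
  | succ n ih =>
    rw [← sub_add_sub_cancel _ (ρ (s ^ n) w), pow_succ', rm]
    exact add_mem ⟨_, rfl⟩ (ih (pow_mem (mem_zpowers s) n))

theorem rank_conj (g u : G) : finrank (ZMod 2) (LinearMap.range (ρ u - 1)) ≤
    finrank (ZMod 2) (LinearMap.range (ρ (g * u * g⁻¹) - 1)) := by
  refine le_trans (Submodule.finrank_mono ?_) (Submodule.finrank_map_le (ρ g⁻¹) _)
  rintro _ ⟨w, rfl⟩
  refine ⟨_, ⟨ρ g w, rfl⟩, ?_⟩
  show ρ g⁻¹ (ρ (g * u * g⁻¹) (ρ g w) - ρ g w) = ρ u w - w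
  rw [map_sub, ← rm, ← rm, ← rm, inv_mul_cancel, r1, show g⁻¹ * (g * u * g⁻¹) * g = u by group]

theorem lift {c d : G ⧸ oddCore G} (c2 : c * c = 1) (d2 : d * d = 1) {r : ℕ} (hr : orderOf (c * d) = r) :
    ∃ u v : G, u * u = 1 ∧ v * v = 1 ∧ orderOf (u * v) = r := by
  have ho : Odd (Nat.card (oddCore G)) := by rw [oddCore, pPrimeCore_eq Nat.prime_two]; exact odd_O
  have key : ∀ c : G ⧸ oddCore G, c * c = 1 → ∃ u : G, u * u = 1 ∧ (u : G ⧸ oddCore G) = c := fun c c2 => by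
    obtain ⟨x, rfl⟩ := QuotientGroup.mk_surjective c
    obtain ⟨u, -, u2, e⟩ := exists_inv_lift ho ((QuotientGroup.eq_one_iff (x * x)).1 c2)
    exact ⟨u, u2, QuotientGroup.eq.2 e⟩
  obtain ⟨u, u2, rfl⟩ := key c c2
  obtain ⟨v, v2, rfl⟩ := key d d2
  have e := inverts_pow (t := v) (x := u * v) (by
    rw [mul_inv_rev, inv_eq_of_mul_eq_one_right u2, inv_eq_of_mul_eq_one_right v2, mul_assoc, tt'' v2]) v2
    (orderOf (u * v) / r)
  refine ⟨v, v * (u * v) ^ (orderOf (u * v) / r), v2, by rw [← mul_assoc, e, inv_mul_cancel], ?_⟩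
  rw [tt' v2]
  exact orderOf_pow_orderOf_div (orderOf_pos _).ne' (hr ▸ orderOf_map_dvd (QuotientGroup.mk' _) (u * v))

theorem ppd {n r : ℕ} (hr : r.Prime) (h : orderOf (2 : ZMod r) = 2 * n) (h0 : 0 < n) : r ∣ 2 ^ n + 1 ∧ ¬ r ∣ 2 ^ n - 1 := by
  have key : ∀ k, r ∣ 2 ^ k - 1 ↔ 2 * n ∣ k := fun k => by
    rw [← ZMod.natCast_eq_zero_iff, Nat.cast_sub Nat.one_le_two_pow, sub_eq_zero, ← h, orderOf_dvd_iff_pow_eq_one]
    simp
  have k1 : ¬ r ∣ 2 ^ n - 1 := fun c => by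
    have := Nat.le_of_dvd h0 ((key n).1 c)
    omega
  have := (key _).2 dvd_rfl
  rw [mul_comm, pow_mul, ← one_pow 2, Nat.sq_sub_sq] at this
  exact ⟨(hr.dvd_mul.1 this).resolve_right k1, k1⟩

theorem zs {n : ℕ} (h : 2 < n) (h6 : n ≠ 6) : ∃ r : ℕ, r.Prime ∧ orderOf (2 : ZMod r) = n := by
  simpa using H26.zsigmondy_orderOf (a := 2) one_lt_two (by omega) (fun c => h6 c.2) fun c => h.ne' c.1

section suz
variable {X : Type*} [Group X] [Finite X] {L H Q D K U W Q₀ : Subgroup X} {t s : X} {n : ℕ}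
  (h : Suz L H Q D K U W Q₀ t s) (hn : Nat.card Q₀ = 2 ^ n) (n2 : 2 ≤ n)
include h hn n2

theorem real : ∃ r : ℕ, r.Prime ∧ (orderOf (2 : ZMod r) = 2 * n ∨ orderOf (2 : ZMod r) = n ∧ Odd n) ∧
    ∃ c d : X, c * c = 1 ∧ d * d = 1 ∧ orderOf (c * d) = r := by
  have cK : Nat.card K = 2 ^ n - 1 := by rw [← hn, h.card₀, Nat.add_sub_cancel]
  have kt : ∀ k ∈ K, k * t * (k * t) = 1 := fun k hk => by
    rw [mul_assoc, ← mul_assoc t, h.invK hk, mul_inv_cancel]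
  have h2 : 2 < Nat.card Q₀ := hn ▸ Nat.pow_lt_pow_right one_lt_two (show 1 < n by omega)
  rcases Nat.even_or_odd n with ⟨m, e⟩ | o
  · have h3 : orderOf (s * t) = 3 := by
      obtain ⟨c, ⟨a, b⟩ | ⟨a, b, d⟩ | ⟨a, b, d, -⟩⟩ := H19.concl h h2
      · exact b
      · obtain ⟨-, l, -, k⟩ := H19.isSuzuki_of_iso (H19.isoSuzuki_of H19.pillarA h h2 c b a d)
        have h' := H19.suz_five h (H19.sq_mem h h2 c b) a d
        have d1 := card_dvd_of_le (h'.leK.trans h'.leDL)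
        have p4 : ∀ i, ∃ j, 4 ^ i = 3 * j + 1 := fun i => ⟨4 ^ i / 3, by
          have : 4 ^ i % 3 = 1 := by rw [Nat.pow_mod]; simp
          omega⟩
        obtain ⟨i, hi⟩ := p4 m
        obtain ⟨j, hj⟩ := p4 l
        rw [cK, k, e, ← two_mul, pow_mul, pow_succ 2 (2 * l), pow_mul, show 2 ^ 2 = 4 from rfl, hi, hj,
          Nat.add_sub_cancel, show (3 * j + 1) * 2 - 1 = 3 * (2 * j) + 1 by omega] at d1
        have := Nat.mod_eq_zero_of_dvd ((dvd_mul_right 3 i).trans d1)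
        simp [Nat.mul_mod, Nat.add_mod, Nat.pow_mod] at this
      · exact d
    have h' := H19.lemma4 h h3
    obtain ⟨r, hr, ho⟩ := zs (n := 2 * n) (by omega) (by omega)
    obtain ⟨p1, p2⟩ := ppd hr ho (by omega)
    have := Fact.mk hr
    obtain ⟨x, hx⟩ := exists_prime_orderOf_dvd_card' r (p1.trans (hn ▸ h'.card ▸ dvd_mul_left _ _))
    rw [← orderOf_coe] at hx
    obtain ⟨a, ha, d, hd, b, hb, e⟩ := h'.bruhat3 x.2 fun c => by
      have := orderOf_dvd_natCard (⟨_, c⟩ : ↥(Q₀ ⊔ K))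
      rw [← orderOf_coe, hx, h'.cardH, hn, cK] at this
      refine p2 ((hr.dvd_mul.1 this).resolve_left fun c => ?_)
      exact hr.one_lt.ne' (Nat.dvd_one.1 ((Nat.dvd_add_right c).1 p1))
    refine ⟨r, hr, .inl ho, b * a, d * t, h.sq₀ (mul_mem hb ha), kt d hd, ?_⟩
    rw [← hx, e, show b * a * (d * t) = b * (a * d * t * b) * b⁻¹ by group]
    exact (MulAut.conj b).orderOf_eq _
  · obtain ⟨r, hr, ho⟩ := zs (n := n) (by obtain ⟨_, _⟩ := o; omega) (by obtain ⟨_, _⟩ := o; omega)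
    have := Fact.mk hr
    obtain ⟨x, hx⟩ := exists_prime_orderOf_dvd_card' (G := K) r (by
      rw [cK, ← ZMod.natCast_eq_zero_iff, Nat.cast_sub Nat.one_le_two_pow, sub_eq_zero, ← ho]
      simp)
    exact ⟨r, hr, .inr ⟨ho, o⟩, x * t, t, kt x x.2, h.tt, by rw [h.tt'', orderOf_coe, hx]⟩
end suz

theorem rank2 (hρ : Function.Injective ρ) (hH : IsStronglyEmbedded H) (h2 : 1 < prank 2 (⊤ : Subgroup G))
    (hS : Hall {2} S ⊤) : (Nat.card S = 2 ^ k → 2 * k ≤ finrank (ZMod 2) V) ∧ ∃ n, (∀ A : Subgroup G, (∀ a ∈ A, a * a = 1) →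
      Nat.card A ≤ 2 ^ n) ∧ ∀ u, u * u = 1 → u ≠ 1 → n ≤ finrank (ZMod 2) (LinearMap.range (ρ u - 1)) := by
  obtain ⟨Q, D, t, a⟩ := bender_mk hH h2
  obtain ⟨K, U, W, Q₀, s, h⟩ := a.exists_suz
  have r2 := (prank_quot_oddCore (G := G)).symm ▸ h2
  have q2 := h.rank_iff.1 r2
  obtain ⟨n, -, hn⟩ := h.exists_pow
  have n2 : 2 ≤ n := (Nat.pow_lt_pow_iff_right one_lt_two).1 (hn ▸ q2 : 2 ^ 1 < 2 ^ n)
  have hQ := a.sylow (hall_self (H19.two_Q a r2))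
  have ho : Odd (Nat.card (oddCore G)) := by rw [oddCore, pPrimeCore_eq Nat.prime_two]; exact odd_O
  have cG := card_eq_card_quotient_mul_card_subgroup (oddCore G)
  obtain ⟨r, hr, o, c, d, c2, d2, e⟩ := real h hn n2
  obtain ⟨u, v, u2, v2, e⟩ := lift c2 d2 e
  have key : ∃ b, finrank (ZMod 2) (LinearMap.range (ρ (u * v) - 1)) = 2 * b ∧ n ≤ b ∧ Odd r ∧
      b ≤ finrank (ZMod 2) (LinearMap.range (ρ u - 1)) := by
    obtain o | ⟨o, o'⟩ := o <;> obtain ⟨p1, p2, p3⟩ := prime_dvd ρ hρ hr o (by omega) e <;>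
      obtain ⟨b, b1, b2⟩ := pair ρ u2 v2 (e ▸ p3) <;> refine ⟨b, b1, ?_, p3, b2⟩ <;> rw [b1] at p1 p2
    · exact Nat.le_of_mul_le_mul_left (Nat.le_of_dvd p2 p1) two_pos
    · exact Nat.le_of_dvd (by omega) ((Nat.coprime_two_right.2 o').dvd_of_dvd_mul_left p1)
  obtain ⟨b, b1, b2, b3, b4⟩ := key
  refine ⟨fun hk => ?_, n, fun A hA => ?_, fun w w2 w1 => ?_⟩
  · have cQ : Nat.card Q = 2 ^ k := hk ▸ Nat.dvd_antisymm (hS.dvd_of_piNat hQ.pi (by
      rw [card_top, cG]; exact Q.card_subgroup_dvd_card.mul_right _)) (hQ.dvd_of_piNat hS.pi (by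
        rw [card_top]
        exact (hk ▸ Nat.Coprime.pow_left k (Nat.coprime_two_left.2 ho)).dvd_of_dvd_mul_right (cG ▸ S.card_subgroup_dvd_card)))
    have nk : n ≤ k := (Nat.pow_dvd_pow_iff_le_right one_lt_two).1 (hn ▸ cQ ▸ card_dvd_of_le h.leQ₀)
    by_cases k3 : k = 3
    · have := Submodule.finrank_le (LinearMap.range (ρ (u * v) - 1))
      have : n ≠ 2 := fun c => by
        obtain ⟨-, ⟨a, -⟩ | ⟨a, -⟩ | ⟨a, -⟩⟩ := H19.concl h q2 <;> rw [cQ, hn, k3, c] at a <;> simp at a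
      omega
    obtain ⟨r, hr, o⟩ := zs (n := 2 * k) (by omega) (by omega)
    have := Fact.mk hr
    obtain ⟨x, hx⟩ := exists_prime_orderOf_dvd_card' (G := G) r ((ppd hr o (by omega)).1.trans (by
      rw [cG, ← card_top, a.card, cQ]; exact (dvd_mul_left _ _).mul_right _))
    obtain ⟨p1, p2, -⟩ := prime_dvd ρ hρ hr o (by omega) hx
    exact (Nat.le_of_dvd p2 p1).trans (Submodule.finrank_le _)
  · have sq : ∀ x ∈ A.map (QuotientGroup.mk' (oddCore G)), x * x = 1 := by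
      rintro _ ⟨x, hx, rfl⟩
      rw [← map_mul, hA x hx, map_one]
    obtain ⟨g, -, hg⟩ := sylow_le_cj Nat.prime_two hQ (Q := A.map (QuotientGroup.mk' (oddCore G)))
      (piGrp_of_isPGroup Nat.prime_two fun x => ⟨1, Subtype.ext ((pow_two _).trans (sq x x.2))⟩) le_top
    rw [← hn]
    refine Nat.card_le_card_of_injective (fun x : A => (⟨g * QuotientGroup.mk' _ (x : G) * g⁻¹, h.memQ₀.2
      ⟨hg (conj_mem_cj (mem_map_of_mem _ x.2)), conj_sq (sq _ (mem_map_of_mem _ x.2)) g⟩⟩ : Q₀)) fun x y e => ?_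
    have := QuotientGroup.eq.1 (mul_left_cancel (mul_right_cancel (congrArg Subtype.val e)))
    exact Subtype.ext (inv_mul_eq_one.1 (eq_one_of_odd (odd_order_of_mem ho this) (hA _ (mul_mem (inv_mem x.2) y.2))))
  · have sa := SA.of_se hH
    have u1 : u ≠ 1 := fun c => hr.one_lt.ne' (by
      rw [← e, c, one_mul, eq_one_of_odd (x := v) (by rw [c, one_mul] at e; exact e ▸ b3) v2, orderOf_one])
    obtain ⟨p, hp⟩ := sa.fix u u2 u1
    obtain ⟨g, -, rfl⟩ := sa.conj_inv u2 u1 hp (mem_top u) (fun c => hH.1 (eq_top_iff.2 fun g _ => by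
      obtain ⟨l, hl⟩ := sa.trans p ((1 : G) : G ⧸ H)
      rw [show l • p = p from c (mem_top l)] at hl
      exact (St_one (H := H)).le (hl ▸ c (mem_top g)))) w2 w1 (mem_top w)
    exact b2.trans (b4.trans (rank_conj g u))

theorem main (hρ : Function.Injective ρ) (hH : IsStronglyEmbedded H) (hS : Hall {2} S ⊤) :
    (∀ k, Nat.card S = 2 ^ k → 2 * k ≤ finrank (ZMod 2) V) ∧ ∀ n, (∀ z ∈ Z(S), z ^ 2 = 1) → Nat.card ↥Z(S) = 2 ^ n →
      ∀ s ∈ S, s ≠ 1 → n ≤ finrank (ZMod 2) (LinearMap.range (ρ s - 1)) := by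
  rcases le_or_gt (prank 2 (⊤ : Subgroup G)) 1 with h1 | h2
  · refine ⟨fun k => rank1 hρ hH h1, fun n hz hn s hs s1 => le_trans (by_contra fun c => ?_) (rank_pos ρ hρ s1)⟩
    obtain ⟨z, -, z2, z1, zs, -⟩ := exists_z h1 hS.pi (ne_bot_of_mem hs s1)
    have : Z(S) ≤ zpowers z := fun x hx => by
      by_cases e : x = 1
      · exact e ▸ one_mem _
      exact (mem_zpowers_inv ((pow_two x).symm.trans (hz x hx)) (zs x hx.1 e)).resolve_left z1 ▸ mem_zpowers z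
    have := card_dvd_of_le this
    rw [hn, Nat.card_zpowers, orderOf_eq_two.2 ⟨z2, z1⟩] at this
    exact c ((Nat.pow_dvd_pow_iff_le_right one_lt_two).1 (this.trans (pow_one 2).symm.dvd))
  · refine ⟨fun k => (rank2 hρ hH h2 hS).1, fun n hz hn s hs s1 => ?_⟩
    obtain ⟨m, h3, h4⟩ := (rank2 (k := 0) hρ hH h2 hS).2
    obtain ⟨v, hv, v2, v1⟩ := exists_inv_of_even (even_iff_two_dvd.2 ((hS.pi.of_le (zpowers_le.2 hs)).dvd_card
      (ne_bot_of_mem (mem_zpowers s) s1)))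
    exact ((Nat.pow_le_pow_iff_right one_lt_two).1 (hn ▸ h3 _ fun a ha => (pow_two a).symm.trans (hz a ha))).trans
      ((h4 v v2 v1).trans (Submodule.finrank_mono (rank_pow hv)))

end H118.SM
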