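import Cfsg.Agent.H22.Loc
import Cfsg.Agent.H22.Rank1
import Cfsg.Agent.H16.Q8Aut
import Cfsg.Agent.H17.Syl

/-! Solvable groups whose Sylow 2-intersections have rank at most one. -/

set_option autoImplicit false
set_option linter.unusedSectionVars false
namespace H18.SR
open Subgroup Cfsg H9
open scoped commutatorElement

variable {X : Type*} [Group X] [Finite X]

theorem core (hC : centralizer (pCore 2 X : Set X) ≤ pCore 2 X)
    (hu : ∀ v ∈ pCore 2 X, ∀ w ∈ pCore 2 X, orderOf v = 2 → orderOf w = 2 → v = w)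
    (hn : ∀ P : Sylow 2 X, ¬ (P : Subgroup X).Normal) : Nonempty (X ≃* GL (Fin 2) (ZMod 3)) ∨
    (Nat.card X = 48 ∧ Nat.card (center X) = 2 ∧ Nonempty (X ⧸ center X ≃* Equiv.Perm (Fin 4)) ∧
      ∀ P : Sylow 2 X, Nonempty ((P : Subgroup X) ≃* QuaternionGroup 4)) := by
  set R := pCore 2 X with hR
  have R2 : IsPGroup 2 R := H1.pCore_isPGroup 2 X
  have two : ∀ K : Subgroup X, K.Normal → (∀ r ∈ K, Odd (orderOf r) → r ∈ centralizer (R : Set X)) → K ≤ R :=
    fun K _ h => H1.le_pCore (PiGrp.isPGroup fun q hq hd => by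
      obtain ⟨r, hr, rfl⟩ := cauchy hq hd
      by_contra c
      exact c ((piGrp_of_isPGroup Nat.prime_two R2).elt (hC (h r hr (hq.odd_of_ne_two c))) _ hq dvd_rfl))
  have ne : ∀ P : Sylow 2 X, R ≠ P := fun P e => hn P (e ▸ inferInstance)
  obtain ⟨r, ro, rC⟩ : ∃ r : X, Odd (orderOf r) ∧ r ∉ centralizer (R : Set X) := by
    by_contra! c
    obtain ⟨P⟩ : Nonempty (Sylow 2 X) := inferInstance
    exact ne P (le_antisymm (H1.pCore_le_sylow P) (le_top.trans (two ⊤ inferInstance fun r _ => c r)))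
  obtain ⟨r3, x, y, h⟩ := (H16.commute_of_two_group R2 (isCyclic_or_qData R2 hu)
    (le_normalizer_of_normal (mem_top r)) ro).resolve_left rC
  obtain ⟨e⟩ := h.nonempty_equiv
  obtain ⟨f, hf⟩ := H16.exists_hom_Q8 e
  have zc : x ^ 2 ∈ center X := mem_center_iff.2 fun g => mul_inv_eq_iff_eq_mul.1 (h.eq_u
    ((inferInstance : R.Normal).conj_mem _ h.umem g) (by rw [← MulAut.conj_apply, MulEquiv.orderOf_eq, h.orderOf_u]))
  have cz : centralizer (R : Set X) = zpowers (x ^ 2) := le_antisymm (fun g hg => by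
    rcases h.center_eq le_rfl (hC hg) (hg x h.xmem).symm (hg y h.ymem).symm with e | e <;> simp [e])
    (zpowers_le.2 (center_le_centralizer _ zc))
  have cz' : center X = zpowers (x ^ 2) := le_antisymm ((center_le_centralizer _).trans cz.le) (zpowers_le.2 zc)
  have c2 : Nat.card (zpowers (x ^ 2)) = 2 := by rw [Nat.card_zpowers, h.orderOf_u]
  have cX : Nat.card X = 2 * Nat.card f.range := by
    rw [← index_ker, ← card_mul_index f.ker, hf, cz, c2]
  have c24 : Nat.card f.range ∣ 24 := by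
    have := card_subgroup_dvd_card f.range
    rwa [Nat.card_perm, Nat.card_fin] at this
  have c16 : ∀ P : Sylow 2 X, 16 ∣ Nat.card P := fun P => by
    obtain ⟨k, hk⟩ := P.isPGroup'.exists_card_eq
    have l := card_le_of_le (H1.pCore_le_sylow P)
    have l2 : Nat.card R ≠ Nat.card P := fun c => ne P (eq_of_le_of_card_ge (H1.pCore_le_sylow P) c.ge)
    rw [← hR, h.card_eq, hk] at l; rw [h.card_eq, hk] at l2
    have : 2 ^ 3 < 2 ^ k := by omega
    rw [hk]; exact pow_dvd_pow 2 (show 4 ≤ k from (Nat.pow_lt_pow_iff_right one_lt_two).1 this)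
  have c48 : Nat.card X = 48 := by
    obtain ⟨P⟩ : Nonempty (Sylow 2 X) := inferInstance
    have a := (c16 P).trans (card_subgroup_dvd_card (P : Subgroup X))
    have b := r3.trans (_root_.orderOf_dvd_natCard r)
    have := Nat.le_of_dvd (by norm_num) c24
    have := Nat.pos_of_dvd_of_pos c24 (by norm_num)
    omega
  have mc : ∀ P : Sylow 2 X, ∃ a, MC (P : Subgroup X) 1 a := fun P => by
    have cP : Nat.card P = 16 := H10.sylow_card_of (a := 4) (m := 3) c48 (by norm_num) P
    have RP : R ≤ P := H1.pCore_le_sylow P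
    rcases cyclic_or_mc_or_klein P.isPGroup' with c | ⟨k, a, c⟩ | ⟨W, WP, nW, c⟩
    · exact absurd (isCyclic_of_le RP).isMulCommutative (h.mc (k := 0)).not_comm
    · obtain rfl : k = 1 := by
        have := c.card_eq
        rw [cP] at this
        have := Nat.pow_right_injective le_rfl (show 2 ^ 4 = _ from this); omega
      exact ⟨a, c⟩
    exfalso
    have inv : ∀ w ∈ W, w * w = 1 := fun w hw => congrArg Subtype.val (c.mul_self ⟨w, hw⟩)
    have WR : W ≤ R := by
      refine le_trans ?_ (two ((centralizer (R.map (QuotientGroup.mk' (center X)) : Set _)).comap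
        (QuotientGroup.mk' (center X))) inferInstance fun r hr ro v hv => ?_)
      · rintro w hw _ ⟨v, hv, rfl⟩
        rw [← map_mul, ← map_mul, QuotientGroup.mk'_eq_mk']
        have a : (v * w)⁻¹ * (w * v) ∈ W := by
          rw [show (v * w)⁻¹ * (w * v) = w⁻¹ * (v⁻¹ * w * v) by group]
          exact mul_mem (inv_mem hw) ((mem_normalizer_iff''.1 (nW (RP hv)) w).1 hw)
        have b : (v * w)⁻¹ * (w * v) ∈ R := by
          rw [show (v * w)⁻¹ * (w * v) = w⁻¹ * v⁻¹ * w * v by group]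
          exact mul_mem ((inferInstance : R.Normal).conj_mem' _ (inv_mem hv) w) hv
        refine ⟨_, ?_, mul_inv_cancel_left _ _⟩
        rcases h.eq_one_or_eq_u b (inv _ a) with e | e <;> rw [e]
        exacts [one_mem _, zc]
      · refine (commute_of_odd_of_stable (A := center X) (R2.to_le ((center_le_centralizer _).trans hC)) ro
          (fun a ha => mem_center_iff.1 ha r) ?_).symm.eq
        have := hr _ (mem_map_of_mem _ hv)
        rw [← QuotientGroup.eq_one_iff]
        change QuotientGroup.mk' _ _ = 1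
        rw [map_mul, map_mul, map_mul, ← this]; simp
    have : W ≤ zpowers (x ^ 2) := fun w hw => by
      rcases h.eq_one_or_eq_u (WR hw) (inv w hw) with e | e <;> simp [e]
    have := card_le_of_le this
    rw [c.card_four, c2] at this; omega
  by_cases hq : ∀ P : Sylow 2 X, Nonempty ((P : Subgroup X) ≃* QuaternionGroup 4)
  · refine Or.inr ⟨c48, cz' ▸ c2, ⟨(QuotientGroup.quotientMulEquivOfEq (by rw [hf, cz, cz'])).trans
      (QuotientGroup.quotientKerEquivOfSurjective f (MonoidHom.range_eq_top.1 (eq_top_of_card_eq _ ?_)))⟩, hq⟩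
    rw [Nat.card_perm, Nat.card_fin]; simp only [Nat.factorial]; omega
  left
  obtain ⟨P, hP⟩ := not_forall.1 hq
  obtain ⟨a, c⟩ := mc P
  have RP : R ≤ P := H1.pCore_le_sylow P
  rcases c.cases with d | d | ⟨-, d⟩
  · have k : ∀ g ∈ R, orderOf g = 4 → g ∈ zpowers a := fun g hg o => by
      by_contra n
      have := orderOf_dvd_of_pow_eq_one ((sq g).trans (d g (RP hg) n))
      rw [o] at this; omega
    exact absurd (commute_of_mem_zpowers (k y h.ymem (h.orderOf_of_notMem h.ymem h.ynot)) (k x h.xmem h.ordx))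
      ((h.mc (k := 0)).not_commute h.ymem h.ynot)
  · exact absurd (c.equiv_quaternion d) hP
  · obtain ⟨b, b1, b2, b3⟩ := c.sd_exists d
    have u : a ^ 2 ^ (0 + 1 + 1) = x ^ 2 := by
      rcases c.center_cases (RP h.umem) fun g _ => mem_center_iff.1 zc g with e | e
      · exact absurd h.orderOf_u (by simp [e])
      · exact e.symm
    obtain ⟨e, -⟩ := H22.loc_sd R2 hC ro (fun e => rC (e ▸ one_mem _)) (P := P) (k := 0) ⟨c, d, b1, b2, b3⟩
      (u ▸ mem_center_iff.1 zc r)
    exact ⟨e.symm.trans H22.e48⟩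

theorem uniq {G : Type*} [Group G] [Finite G]
    (hI : ∀ S T : Sylow 2 G, S ≠ T → PRankLE 2 1 ↥((S : Subgroup G) ⊓ (T : Subgroup G)))
    (hn : ∀ P : Sylow 2 (G ⧸ oddCore G), ¬ (P : Subgroup (G ⧸ oddCore G)).Normal) :
    H22.U1 (pCore 2 (G ⧸ oddCore G)) := by
  let π := QuotientGroup.mk' (oddCore G)
  have sj : Function.Surjective π := QuotientGroup.mk'_surjective _
  let N := (pCore 2 (G ⧸ oddCore G)).comap π
  obtain ⟨S⟩ : Nonempty (Sylow 2 G) := inferInstance
  have hD : H17.IsSyl 2 (S ⊓ N) N := (H17.isSyl_sylow S).inf_normal le_top le_normalizer_of_normal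
  obtain ⟨g, hg⟩ : ∃ g : G, π g ∉ normalizer ((S : Subgroup G).map π : Set _) := by
    by_contra! c
    exact hn (S.mapSurjective sj) (normalizer_eq_top_iff.1 (eq_top_iff.2 fun q _ => by
      obtain ⟨g, rfl⟩ := sj q; exact c g))
  obtain ⟨n, hN, ng⟩ := hD.frattini_mem (le_normalizer_of_normal (mem_top g))
  have ne : S ≠ (n * g) • S := fun e => hg (by
    have a : π (n * g) ∈ normalizer ((S : Subgroup G).map π : Set _) :=
      le_normalizer_map π (mem_map_of_mem π (Sylow.smul_eq_iff_mem_normalizer.1 e.symm))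
    rw [map_mul] at a
    exact (Subgroup.mul_mem_cancel_left _ (le_normalizer (H1.pCore_le_sylow (S.mapSurjective sj) hN))).1 a)
  have u := H22.u1_of_rank (hI _ _ ne)
  have le : (S : Subgroup G) ⊓ N ≤ (S : Subgroup G) ⊓ ((n * g) • S : Sylow 2 G) := fun d hd => ⟨hd.1, by
    have := ((mem_normalizer_iff''.1 ng d).1 hd).1
    exact ⟨_, this, by simp [mul_assoc]⟩⟩
  have im : ((S : Subgroup G) ⊓ N).map π = pCore 2 (G ⧸ oddCore G) := by
    have := hD.map π
    rw [map_comap_eq_self_of_surjective sj] at this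
    exact (this.eq_of_le (H1.pCore_isPGroup 2 _) this.le le_rfl).symm
  have inj : ∀ d ∈ (S : Subgroup G), π d = 1 → d = 1 := fun d hd e => mem_bot.1
    ((H17.inf_eq_bot_of_pgroup_of_not_dvd S.isPGroup' (Nat.prime_two.coprime_iff_not_dvd.1
      (H1.coprime_card_pPrimeCore 2 G).symm)).le ⟨hd, (QuotientGroup.eq_one_iff d).1 e⟩)
  intro s hs t ht s2 t2 c
  rw [← im] at hs ht
  obtain ⟨s, hs, rfl⟩ := hs
  obtain ⟨t, ht, rfl⟩ := ht
  have o : ∀ {s} (hs : s ∈ (S : Subgroup G) ⊓ N), orderOf (π s) = 2 →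
      orderOf (⟨s, le hs⟩ : ↥((S : Subgroup G) ⊓ ((n * g) • S : Sylow 2 G))) = 2 := fun {s} hs e =>
    orderOf_eq_prime (Subtype.ext (inj (s ^ 2) (Subgroup.pow_mem _ hs.1 2) (by rw [map_pow]; exact orderOf_dvd_iff_pow_eq_one.1 e.dvd)))
      fun c => by rw [show s = 1 from congrArg Subtype.val c, map_one, orderOf_one] at e; omega
  have := u ⟨s, le hs⟩ trivial ⟨t, le ht⟩ trivial (o hs s2) (o ht t2) (Subtype.ext (mul_inv_eq_one.1 (inj _
    (mul_mem (mul_mem hs.1 ht.1) (inv_mem (mul_mem ht.1 hs.1))) (by simp [c]))))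
  exact congrArg π (congrArg Subtype.val this)

end H18.SR
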