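import Cfsg.Agent.H10.Dickson
import Cfsg.Agent.H17.Syl
import Cfsg.Prelude.Def_Transfer
import Mathlib.Algebra.Module.ZMod

/-! Sylow subgroups extraspecial of order `p³` and exponent `p`: bounds on `p` from radical subgroups of order `p²`. -/

set_option autoImplicit false
set_option linter.unusedSectionVars false
namespace H18.XP
open Subgroup H10 Matrix MulAction H17
open scoped MatrixGroups commutatorElement

theorem s4_pow : ∀ g : Equiv.Perm (Fin 4), g ^ 3 = 1 ∨ g ^ 4 = 1 := by decide +kernel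
theorem s4_card : (Finset.univ.filter fun g : Equiv.Perm (Fin 4) => g ^ 2 ≠ 1 ∧ g ^ 3 ≠ 1).card = 6 := by
  decide +kernel
theorem a4_pow : ∀ g : Equiv.Perm (Fin 4), Equiv.Perm.sign g = 1 → g ^ 2 = 1 ∨ g ^ 3 = 1 := by decide +kernel
theorem a5_pow : ∀ g : Equiv.Perm (Fin 5), Equiv.Perm.sign g = 1 → g ^ 2 = 1 ∨ g ^ 3 = 1 ∨ g ^ 5 = 1 := by
  decide +kernel

theorem pgl_bound {p : ℕ} [hp : Fact p.Prime] (h11 : 11 ≤ p) (H : Subgroup PGL(2, ZMod p)) (hH : ¬ p ∣ Nat.card H)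
    (X : Finset (OnePoint (ZMod p))) (h3 : 3 ≤ X.card)
    (hX : ∀ x ∈ X, ∃ g ∈ H, g • x = x ∧ ∀ k, g ^ k = 1 → p - 1 ∣ 3 * k) : p = 13 ∧ X.card ≤ 12 := by
  classical
  have h := p1Like_sub H
  have hU : ∀ x, h.Uni x = ⊥ := fun x => (eq_bot_iff_forall _).2 fun g hg => by
    have := h.pow_char_of_mem_Uni (p := p) hg
    rcases (Nat.dvd_prime hp.out).1 (orderOf_dvd_of_pow_eq_one this) with e | e
    · exact orderOf_eq_one_iff.1 e
    · have := _root_.orderOf_dvd_natCard g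
      rw [e] at this; exact absurd this hH
  have hY : ∀ x ∈ X, ∃ g : H, g • PL.of x = PL.of x ∧ ∀ k, g ^ k = 1 → p - 1 ∣ 3 * k := fun x hx => by
    obtain ⟨g, hg, e, hk⟩ := hX x hx
    exact ⟨⟨g, hg⟩, (PL.smul_of_eq_iff _ _ _).2 e, fun k e => hk k (congrArg Subtype.val e)⟩
  choose! f hf hk using hY
  have no : ∀ x ∈ X, ∀ k, 0 < k → k ≤ 3 → f x ^ k ≠ 1 := fun x hx k k0 k3 e => by
    have := Nat.le_of_dvd (by omega) (hk x hx k e); omega
  have n5 : ∀ x ∈ X, f x ^ 5 ≠ 1 := fun x hx e => by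
    have := hk x hx 5 e
    have h16 := Nat.le_of_dvd (by omega) this
    have : p ≤ 16 := by omega
    interval_cases p <;> first | omega | exact absurd hp.out (by norm_num)
  have n1 : ∀ x ∈ X, f x ≠ 1 := fun x hx e => no x hx 1 one_pos (by omega) (by rw [e, one_pow])
  have two : ∀ y z : PL (ZMod p), ∃ x ∈ X, PL.of x ≠ y ∧ PL.of x ≠ z := fun y z => by
    by_contra hc
    push Not at hc
    have : X.map ⟨_, PL.of_injective⟩ ⊆ {y, z} := fun w hw => by
      obtain ⟨x, hx, rfl⟩ := Finset.mem_map.1 hw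
      by_cases e : PL.of x = y
      · simp [e]
      · simp [hc x hx e]
    have h1 := Finset.card_le_card this
    have h2 : ({y, z} : Finset _).card ≤ 2 := Finset.card_le_two
    rw [Finset.card_map] at h1; omega
  rcases h.dickson_ss hU with ⟨y, hy⟩ | ⟨y, hy⟩ | ⟨⟨e⟩⟩ | ⟨⟨e⟩⟩ | ⟨⟨e⟩⟩
  · exfalso
    obtain ⟨x, hx, h1, -⟩ := two y y
    obtain ⟨x', hx', h2, h4⟩ := two y (PL.of x)
    have hc := h.isCyclic_stabilizer (hU y)
    have hm : f x * f x' = f x' * f x := congrArg Subtype.val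
      (hc.commGroup.mul_comm (⟨f x, hy _⟩ : stabilizer H y) ⟨f x', hy _⟩)
    exact n1 x' hx' (h.fix_three h1.symm h2.symm h4.symm (hy _)
      (h.fix_of_commute (n1 x hx) h1 (hy _) (hf x hx) hm (hy _)) (hf x' hx'))
  · exfalso
    obtain ⟨z, hz, hs, hw⟩ := h.exists_swap_of_card_orbit hy
    obtain ⟨x, hx, h1, h2⟩ := two y z
    have hq : f x ^ 2 ∈ stabilizer H y := by
      by_cases c : f x ∈ stabilizer H y
      · exact Subgroup.pow_mem _ c 2
      · rw [pow_two, h.mul_self_of_card_orbit hy c]; exact one_mem _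
    refine no x hx 2 two_pos (by omega) (h.fix_three hz.symm h1.symm h2.symm hq (hs hq) ?_)
    rw [pow_two, mul_smul, hf x hx, hf x hx]
  · exfalso
    obtain ⟨x, hx⟩ := Finset.card_pos.1 (show 0 < X.card by omega)
    rcases a4_pow _ (Equiv.Perm.mem_alternatingGroup.1 (e (f x)).2) with c | c
    · exact no x hx 2 two_pos (by omega) (e.injective (by rw [map_pow, map_one]; exact Subtype.ext c))
    · exact no x hx 3 (by omega) le_rfl (e.injective (by rw [map_pow, map_one]; exact Subtype.ext c))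
  · have ne : ∀ x ∈ X, ∀ k, 0 < k → k ≤ 3 → e (f x) ^ k ≠ 1 := fun x hx k a b c =>
      no x hx k a b (e.injective (by rw [map_pow, map_one, c]))
    refine ⟨?_, ?_⟩
    · obtain ⟨x, hx⟩ := Finset.card_pos.1 (show 0 < X.card by omega)
      have := hk x hx 4 (e.injective (by
        rw [map_pow, map_one]; exact (s4_pow _).resolve_left (ne x hx 3 (by omega) le_rfl)))
      have h16 := Nat.le_of_dvd (by omega) this
      have : p ≤ 13 := by omega
      interval_cases p <;> first | omega | exact absurd hp.out (by norm_num)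
    · have := Finset.card_le_mul_card_image_of_maps_to (s := X) (f := fun x => e (f x))
        (t := Finset.univ.filter fun g : Equiv.Perm (Fin 4) => g ^ 2 ≠ 1 ∧ g ^ 3 ≠ 1)
        (fun x hx => by simp [ne x hx 2 two_pos (by omega), ne x hx 3 (by omega) le_rfl]) 2 fun g _ => by
          by_contra hc
          obtain ⟨a, ha, b, hb, c, hc, ab, ac, bc⟩ := Finset.two_lt_card.1 (not_le.1 hc)
          simp only [Finset.mem_filter] at ha hb hc
          have e1 : f b = f a := e.injective (hb.2.trans ha.2.symm)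
          have e2 : f c = f a := e.injective (hc.2.trans ha.2.symm)
          exact n1 a ha.1 (h.fix_three (PL.of_injective.ne ab) (PL.of_injective.ne ac) (PL.of_injective.ne bc)
            (hf a ha.1) (e1 ▸ hf b hb.1) (e2 ▸ hf c hc.1))
      rw [s4_card] at this; omega
  · exfalso
    obtain ⟨x, hx⟩ := Finset.card_pos.1 (show 0 < X.card by omega)
    rcases a5_pow _ (Equiv.Perm.mem_alternatingGroup.1 (e (f x)).2) with c | c | c
    · exact no x hx 2 two_pos (by omega) (e.injective (by rw [map_pow, map_one]; exact Subtype.ext c))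
    · exact no x hx 3 (by omega) le_rfl (e.injective (by rw [map_pow, map_one]; exact Subtype.ext c))
    · exact n5 x hx (e.injective (by rw [map_pow, map_one]; exact Subtype.ext c))

variable {G : Type*} [Group G] [Finite G] {p : ℕ} [hp : Fact p.Prime] {P : Subgroup G} {z : G}

/-- a Sylow subgroup of order `p³` and exponent `p` with centre `⟨z⟩` containing all commutators -/
structure XS (p : ℕ) (P : Subgroup G) (z : G) : Prop where
  syl : IsSyl p P ⊤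
  exp : ∀ u ∈ P, u ^ p = 1
  card : Nat.card P = p ^ 3
  z1 : z ≠ 1
  cen : P ⊓ centralizer (P : Set G) = zpowers z
  com : ∀ u ∈ P, ∀ v ∈ P, ⁅u, v⁆ ∈ zpowers z

theorem mem_zpowers_of_prime {z w : G} (hz : orderOf z = p) (hw : w ∈ zpowers z) (h1 : w ≠ 1) : z ∈ zpowers w := by
  have : Nat.card (zpowers z) = p := by rw [Nat.card_zpowers, hz]
  obtain ⟨k, hk⟩ := mem_zpowers_of_prime_card this (g := ⟨w, hw⟩) (g' := ⟨z, mem_zpowers z⟩)
    fun e => h1 (congrArg Subtype.val e)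
  exact ⟨k, congrArg Subtype.val hk⟩

namespace XS
variable (h : XS p P z)
include h

theorem zl {w : G} (hw : w ∈ zpowers z) : w ∈ P := (h.cen.ge hw).1
theorem zP : z ∈ P := h.zl (mem_zpowers z)
theorem zc {w u : G} (hw : w ∈ zpowers z) (hu : u ∈ P) : Commute u w := (h.cen.ge hw).2 u hu
theorem ord : orderOf z = p := orderOf_eq_prime (h.exp z h.zP) h.z1
theorem cz : Nat.card (zpowers z) = p := by rw [Nat.card_zpowers, h.ord]

theorem com_mul {u u' v : G} (hu : u ∈ P) (hu' : u' ∈ P) (hv : v ∈ P) : ⁅u * u', v⁆ = ⁅u, v⁆ * ⁅u', v⁆ := by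
  rw [show ⁅u * u', v⁆ = u * ⁅u', v⁆ * u⁻¹ * ⁅u, v⁆ by group, (h.zc (h.com _ hu' _ hv) hu).eq, mul_inv_cancel_right,
    (h.zc (h.com _ hu _ hv) (h.zl (h.com _ hu' _ hv))).eq]

/-- commutation with a fixed element as a homomorphism -/
def cm {v : G} (hv : v ∈ P) : P →* G := MonoidHom.mk' (fun u => ⁅(u : G), v⁆) fun u u' => h.com_mul u.2 u'.2 hv

theorem com_zpow {u v : G} (hu : u ∈ P) (hv : v ∈ P) (i : ℤ) : ⁅u ^ i, v⁆ = ⁅u, v⁆ ^ i :=
  map_zpow (h.cm hv) ⟨u, hu⟩ i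

theorem com_sc {u v w w' : G} (hu : u ∈ P) (hv : v ∈ P) (hw : w ∈ zpowers z) (hw' : w' ∈ zpowers z) (i : ℤ) :
    ⁅u ^ i * w, v ^ i * w'⁆ = ⁅u, v⁆ ^ (i * i) := by
  have a : ∀ {u v w : G}, u ∈ P → v ∈ P → w ∈ zpowers z → ⁅u ^ i * w, v⁆ = ⁅u, v⁆ ^ i := fun hu hv hw => by
    rw [h.com_mul (zpow_mem hu i) (h.zl hw) hv, h.com_zpow hu hv,
      commutatorElement_eq_one_iff_commute.2 (h.zc hw hv).symm, mul_one]
  rw [a hu (mul_mem (zpow_mem hv i) (h.zl hw')) hw, ← commutatorElement_inv, a hv hu hw', ← _root_.inv_zpow,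
    commutatorElement_inv, ← _root_.zpow_mul]

theorem exists_u {x : G} (hx : x ∈ P) (hz : x ∉ zpowers z) : ∃ u ∈ P, u * x * u⁻¹ = x * z := by
  obtain ⟨v, hv, h1⟩ : ∃ v ∈ P, ⁅v, x⁆ ≠ 1 := by
    by_contra hc
    push Not at hc
    exact hz (h.cen.le ⟨hx, fun v hv => commutatorElement_eq_one_iff_mul_comm.1 (hc v hv)⟩)
  obtain ⟨i, hi⟩ := mem_zpowers_of_prime h.ord (h.com _ hv _ hx) h1
  refine ⟨v ^ i, zpow_mem hv i, ?_⟩
  rw [show v ^ i * x * (v ^ i)⁻¹ = ⁅v ^ i, x⁆ * x by group, h.com_zpow hv hx, (h.zc (mem_zpowers z) hx).eq]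
  exact congrArg (· * x) hi

theorem cj_z {n w : G} (hn : n ∈ normalizer (P : Set G)) (hw : w ∈ zpowers z) : n * w * n⁻¹ ∈ zpowers z := by
  refine h.cen.le ⟨(mem_normalizer_iff.1 hn _).1 (h.zl hw), fun u hu => ?_⟩
  have := (h.zc hw ((mem_normalizer_iff''.1 hn u).1 hu)).eq
  calc u * (n * w * n⁻¹) = n * (n⁻¹ * u * n * w) * n⁻¹ := by group
    _ = _ := by rw [this]; group

theorem exists_rep : ∃ (ρ : normalizer (P : Set G) →* GL (Fin 2) (ZMod p)) (ψ : P →* Multiplicative (Fin 2 → ZMod p)),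
    (∀ u, ψ u = 1 ↔ (u : G) ∈ zpowers z) ∧ Function.Surjective ψ ∧
    ∀ n u, (ψ (P.normalizerMonoidHom n u)).toAdd = (ρ n).1 *ᵥ (ψ u).toAdd := by
  let Z := (zpowers z).subgroupOf P
  haveI : Z.Normal := ⟨fun a ha g => by
    change (g : G) * a * (g : G)⁻¹ ∈ zpowers z
    rw [(h.zc (w := a) ha g.2).eq, mul_inv_cancel_right]; exact ha⟩
  letI : CommGroup (P ⧸ Z) := { (inferInstance : Group (P ⧸ Z)) with
    mul_comm := fun a b => by
      induction a using QuotientGroup.induction_on with | H a => ?_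
      induction b using QuotientGroup.induction_on with | H b => ?_
      rw [← QuotientGroup.mk_mul, ← QuotientGroup.mk_mul, QuotientGroup.eq]
      have := h.com _ (inv_mem b.2) _ (inv_mem a.2)
      change (((a : G) * b)⁻¹ * ((b : G) * a) : G) ∈ zpowers z
      convert this using 1; group }
  obtain ⟨_⟩ : Nonempty (Module (ZMod p) (Additive (P ⧸ Z))) := ⟨AddCommGroup.zmodModule (n := p) fun x =>
    Additive.toMul.injective (by
      obtain ⟨a, ha⟩ := QuotientGroup.mk_surjective x.toMul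
      rw [toMul_nsmul, ← ha, ← QuotientGroup.mk_pow, show a ^ p = 1 from Subtype.ext (h.exp _ a.2)]; rfl)⟩
  haveI : Module.Finite (ZMod p) (Additive (P ⧸ Z)) := Module.Finite.of_finite
  have hm : Module.finrank (ZMod p) (Additive (P ⧸ Z)) = 2 := by
    have e := Module.natCard_eq_pow_finrank (K := ZMod p) (V := Additive (P ⧸ Z))
    have e2 := card_eq_card_quotient_mul_card_subgroup Z
    rw [Nat.card_congr (subgroupOfEquivOfLe fun w hw => h.zl hw).toEquiv, h.cz, h.card, pow_succ] at e2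
    rw [Nat.card_zmod] at e
    exact Nat.pow_right_injective hp.out.two_le (e.symm.trans (Nat.eq_of_mul_eq_mul_right hp.out.pos e2).symm)
  let b : Module.Basis (Fin 2) (ZMod p) (Additive (P ⧸ Z)) := Module.finBasisOfFinrankEq _ _ hm
  let τ : normalizer (P : Set G) →* Module.End (ZMod p) (Additive (P ⧸ Z)) :=
    { toFun := fun n => (MonoidHom.toAdditive (QuotientGroup.map Z Z (P.normalizerMonoidHom n).toMonoidHom
        fun w hw => h.cj_z n.2 hw)).toZModLinearMap p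
      map_one' := LinearMap.ext fun v => by
        obtain ⟨a, ha⟩ := QuotientGroup.mk_surjective v.toMul
        obtain rfl : v = Additive.ofMul (a : P ⧸ Z) := congrArg Additive.ofMul ha.symm
        change Additive.ofMul ((P.normalizerMonoidHom 1 a : P) : P ⧸ Z) = _
        rw [map_one]; rfl
      map_mul' := fun m n => LinearMap.ext fun v => by
        obtain ⟨a, ha⟩ := QuotientGroup.mk_surjective v.toMul
        obtain rfl : v = Additive.ofMul (a : P ⧸ Z) := congrArg Additive.ofMul ha.symm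
        change Additive.ofMul ((P.normalizerMonoidHom (m * n) a : P) : P ⧸ Z) = _
        rw [map_mul]; rfl }
  refine ⟨((LinearMap.toMatrixAlgEquiv b).toMonoidHom.comp τ).toHomUnits,
    (AddMonoidHom.toMultiplicativeRight b.equivFun.toAddMonoidHom).comp (QuotientGroup.mk' Z), fun u => ?_,
    fun w => ?_, fun n u => ?_⟩
  · change b.equivFun (Additive.ofMul (u : P ⧸ Z)) = 0 ↔ _
    rw [map_eq_zero_iff _ b.equivFun.injective]
    exact QuotientGroup.eq_one_iff (N := Z) u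
  · obtain ⟨v, hv⟩ := b.equivFun.surjective w.toAdd
    obtain ⟨a, ha⟩ := QuotientGroup.mk_surjective v.toMul
    obtain rfl : v = Additive.ofMul (a : P ⧸ Z) := congrArg Additive.ofMul ha.symm
    exact ⟨a, congrArg Multiplicative.ofAdd hv⟩
  · exact (LinearMap.toMatrix_mulVec_repr b b (τ n) (Additive.ofMul (u : P ⧸ Z))).symm

theorem pw {y : G} (hy : y ∈ P) {i j : ℕ} (e : (i : ZMod p) = j) : y ^ i = y ^ j :=
  pow_eq_pow_iff_modEq.2 (((ZMod.natCast_eq_natCast_iff _ _ _).1 e).of_dvd (orderOf_dvd_of_pow_eq_one (h.exp y hy)))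

omit h in
theorem tv {l x z : G} (h1 : l * x * l⁻¹ = x) (h2 : l * z * l⁻¹ = z * x) (i : ℕ) :
    l ^ i * x * (l ^ i)⁻¹ = x ∧ l ^ i * z * (l ^ i)⁻¹ = z * x ^ i := by
  induction i with
  | zero => simp
  | succ i ih =>
    have e : ∀ y, l ^ (i + 1) * y * (l ^ (i + 1))⁻¹ = l ^ i * (l * y * l⁻¹) * (l ^ i)⁻¹ := fun y => by group
    refine ⟨by rw [e, h1, ih.1], ?_⟩
    rw [e, h2, ← conj_mul, ih.1, ih.2, pow_succ, mul_assoc]

theorem exists_n {x l : G} (hx : x ∈ P) (hz : x ∉ zpowers z) (h1 : l * x * l⁻¹ = x) (h2 : l * z * l⁻¹ = z * x)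
    {a b : ZMod p} (hab : a * b = 1) : ∃ n ∈ normalizer (P : Set G), n * z * n⁻¹ = z ^ a.val ∧
      ∃ w ∈ zpowers z, n * x * n⁻¹ = x ^ b.val * w := by
  obtain ⟨u, hu, h3⟩ := h.exists_u hx hz
  have zz := mem_zpowers z
  have c : Commute x z := h.zc zz hx
  obtain ⟨u1, u2⟩ := tv (by rw [(h.zc zz hu).eq, mul_inv_cancel_right]) h3 (a - 1).val
  obtain ⟨l1, l2⟩ := tv h1 h2 (-b).val
  set g := l ^ (-b).val * u ^ (a - 1).val * l with hg
  have e : ∀ y, g * y * g⁻¹ = l ^ (-b).val * (u ^ (a - 1).val * (l * y * l⁻¹) * (u ^ (a - 1).val)⁻¹) *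
    (l ^ (-b).val)⁻¹ := fun y => by rw [hg]; group
  have gx : g * x * g⁻¹ = x ^ b.val * z ^ (a - 1).val := by
    rw [e, h1, u2, ← conj_mul, l1, ← conj_pow, l2, (c.symm.pow_right _).mul_pow, ← pow_mul,
      (c.symm.pow_pow _ _).eq, ← mul_assoc, ← pow_succ', h.pw hx (j := b.val)]
    push_cast; simp only [ZMod.natCast_zmod_val]; linear_combination (-1 : ZMod p) * hab
  have gz : g * z * g⁻¹ = z ^ a.val := by
    rw [e, h2, ← conj_mul (a := z), u1, u2, c.pow_right _ |>.eq, ← mul_assoc z, ← pow_succ', ← conj_mul, l1, ← conj_pow, l2,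
      (c.symm.pow_right _).mul_pow, ← pow_mul, mul_assoc, ← pow_succ, h.pw hx (j := 0), pow_zero, mul_one,
      h.pw h.zP (j := a.val)]
    · push_cast; simp only [ZMod.natCast_zmod_val]; ring
    · push_cast; simp only [ZMod.natCast_zmod_val]; linear_combination (-1 : ZMod p) * hab
  have gi : ∀ w ∈ zpowers z, g⁻¹ * w * g ∈ zpowers z := by
    rintro _ ⟨i, rfl⟩
    refine ⟨(b.val : ℤ) * i, ?_⟩
    have : z = g * z ^ b.val * g⁻¹ := by
      rw [← conj_pow, gz, ← pow_mul, h.pw h.zP (j := 1), pow_one]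
      push_cast; simp only [ZMod.natCast_zmod_val]; exact hab
    beta_reduce
    conv_rhs => rw [this, conj_zpow]
    rw [_root_.zpow_mul, zpow_natCast]; group
  let K : Subgroup G :=
    { carrier := {k | Commute k z ∧ ∃ i : ℤ, k * x * k⁻¹ = x * z ^ i}
      one_mem' := ⟨Commute.one_left _, 0, by simp⟩
      mul_mem' := by
        rintro k k' ⟨a1, i, a2⟩ ⟨b1, j, b2⟩
        refine ⟨a1.mul_left b1, i + j, ?_⟩
        rw [show k * k' * x * (k * k')⁻¹ = k * (k' * x * k'⁻¹) * k⁻¹ by group, b2, ← conj_mul, a2,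
          (a1.zpow_right j).eq]
        group
      inv_mem' := by
        rintro k ⟨a1, i, a2⟩
        refine ⟨a1.inv_left, -i, ?_⟩
        calc k⁻¹ * x * k⁻¹⁻¹ = k⁻¹ * (x * z ^ i) * (z ^ (-i) * k) := by group
          _ = _ := by rw [← a2, ← (a1.zpow_right _).eq]; group }
  have PK : P ≤ K := fun v hv => by
    obtain ⟨i, hi⟩ := h.com _ hv _ hx
    refine ⟨h.zc zz hv, i, ?_⟩
    rw [(c.zpow_right i).eq, show z ^ i = _ from hi]; group
  have gK : cj g⁻¹ P ≤ K := by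
    rintro _ ⟨v, hv, rfl⟩
    change Commute (g⁻¹ * v * g⁻¹⁻¹) z ∧ ∃ i : ℤ, g⁻¹ * v * g⁻¹⁻¹ * x * (g⁻¹ * v * g⁻¹⁻¹)⁻¹ = x * z ^ i
    have xP : g * x * g⁻¹ ∈ P := gx ▸ mul_mem (Subgroup.pow_mem _ hx _) (Subgroup.pow_mem _ h.zP _)
    obtain ⟨i, hi⟩ := inv_mem (gi _ (h.com _ (inv_mem xP) _ hv))
    refine ⟨?_, -i, ?_⟩
    · have := (h.zc (gz ▸ Subgroup.pow_mem _ zz a.val) hv).eq
      calc g⁻¹ * v * g⁻¹⁻¹ * z = g⁻¹ * (v * (g * z * g⁻¹)) * g := by group
        _ = _ := by rw [this]; group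
    · rw [_root_.zpow_neg, show z ^ i = _ from hi]; group
  obtain ⟨k, ⟨k1, i, k2⟩, hk⟩ := (h.syl.mono PK le_top).exists_le_cj (isPGroup_cj g⁻¹ h.syl.pgroup) gK
  refine ⟨g * k, inv_mem_iff.1 (mem_normalizer_fintype fun v hv => ?_), ?_, z ^ (a - 1).val * (z ^ a.val) ^ i,
    mul_mem (Subgroup.pow_mem _ zz _) (zpow_mem (Subgroup.pow_mem _ zz _) _), ?_⟩
  · obtain ⟨w, hw, e⟩ := hk (show g⁻¹ * v * g⁻¹⁻¹ ∈ cj g⁻¹ P from ⟨v, hv, rfl⟩)
    have e : k * w * k⁻¹ = g⁻¹ * v * g⁻¹⁻¹ := e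
    rw [show (g * k)⁻¹ * v * (g * k)⁻¹⁻¹ = k⁻¹ * (g⁻¹ * v * g⁻¹⁻¹) * k by group, ← e]
    convert hw using 1; group
  · rw [show g * k * z * (g * k)⁻¹ = g * (k * z * k⁻¹) * g⁻¹ by group, k1.eq, mul_inv_cancel_right, gz]
  · rw [show g * k * x * (g * k)⁻¹ = g * (k * x * k⁻¹) * g⁻¹ by group, k2, ← conj_mul, gx, ← conj_zpow, gz, mul_assoc]

theorem exists_nc : ∃ x ∈ P, ∃ y ∈ P, ⁅x, y⁆ ≠ 1 := by
  by_contra hc
  push Not at hc
  have : P = zpowers z := le_antisymm (fun x hx => h.cen.le ⟨hx, fun v hv =>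
    commutatorElement_eq_one_iff_mul_comm.1 (hc v hv x hx)⟩) fun w hw => h.zl hw
  have e := h.card
  rw [this, h.cz] at e
  exact absurd (Nat.pow_right_injective hp.out.two_le ((pow_one p).trans e)) (by norm_num)

theorem main (h11 : 11 ≤ p) : ∃ pt : G → OnePoint (ZMod p),
    (∀ x ∈ P, ∀ y ∈ P, x ∉ zpowers z → y ∉ zpowers z → pt x = pt y → x ∈ zpowers y ⊔ zpowers z) ∧
    (∀ w, ∃ x ∈ P, x ∉ zpowers z ∧ pt x = w) ∧ ∀ X : Finset (OnePoint (ZMod p)), 3 ≤ X.card →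
      (∀ w ∈ X, ∃ x ∈ P, x ∉ zpowers z ∧ pt x = w ∧ ∃ l, l * x * l⁻¹ = x ∧ l * z * l⁻¹ = z * x) →
      p = 13 ∧ X.card ≤ 12 := by
  classical
  obtain ⟨ρ, ψ, h0, hs, ha⟩ := h.exists_rep
  have ne : ∀ {x} (hx : x ∈ P), x ∉ zpowers z → (ψ ⟨x, hx⟩).toAdd ≠ 0 := fun hx hz e => hz ((h0 _).1 e)
  have sm : ∀ (x : P) (c : ZMod p), (ψ (x ^ c.val)).toAdd = c • (ψ x).toAdd := fun x c => by
    rw [map_pow, toAdd_pow, ← Nat.cast_smul_eq_nsmul (ZMod p), ZMod.natCast_zmod_val]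
  have dv : ∀ (x y : P) (c : ZMod p), (ψ y).toAdd = c • (ψ x).toAdd → ∃ w ∈ zpowers z, (y : G) = x ^ c.val * w :=
    fun x y c e => ⟨_, (h0 ((x ^ c.val)⁻¹ * y)).1 (by
      rw [map_mul, map_inv, inv_mul_eq_one]; exact Multiplicative.toAdd.injective ((sm x c).trans e.symm)), by simp⟩
  let E := OnePoint.equivProjectivization (ZMod p)
  let pt : G → OnePoint (ZMod p) := fun x =>
    if c : x ∈ P ∧ x ∉ zpowers z then E.symm (Projectivization.mk _ _ (ne c.1 c.2)) else OnePoint.infty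
  have hpt : ∀ {x} (hx : x ∈ P) (hz : x ∉ zpowers z), E (pt x) = Projectivization.mk _ _ (ne hx hz) := fun hx hz => by
    simp only [pt, dif_pos (And.intro hx hz), Equiv.apply_symm_apply]
  refine ⟨pt, fun x hx y hy xz yz e => ?_, fun w => ?_, fun X h3 hX => ?_⟩
  · obtain ⟨c, hc⟩ := (Projectivization.mk_eq_mk_iff' _ _ _ _ _).1 ((hpt hx xz).symm.trans (e ▸ hpt hy yz))
    obtain ⟨w, hw, e⟩ := dv ⟨y, hy⟩ ⟨x, hx⟩ c hc.symm
    rw [show x = _ from e]
    exact mul_mem (mem_sup_left (Subgroup.pow_mem _ (mem_zpowers y) _)) (mem_sup_right hw)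
  · obtain ⟨x, hx⟩ := hs (Multiplicative.ofAdd (E w).rep)
    have xz : (x : G) ∉ zpowers z := fun c => (E w).rep_nonzero (congrArg Multiplicative.toAdd (hx.symm.trans ((h0 x).2 c)))
    refine ⟨x, x.2, xz, E.injective ((hpt x.2 xz).trans ?_)⟩
    simp only [Subtype.coe_eta, hx, toAdd_ofAdd, Projectivization.mk_rep]
  refine pgl_bound h11 (ProjGenLinGroup.mk.comp ρ).range (fun c => (h.syl.mono le_normalizer le_top).not_dvd ?_) X h3
    fun w hw => ?_
  · have hk : P.subgroupOf (normalizer (P : Set G)) ≤ (ProjGenLinGroup.mk.comp ρ).ker := fun n hn => by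
      have : ρ n = 1 := Units.ext (Matrix.ext_of_mulVec_single fun i => by
        obtain ⟨x, hx⟩ := hs (Multiplicative.ofAdd (Pi.single i 1))
        have e := ha n x
        rw [hx, toAdd_ofAdd] at e
        have e' := (h0 (P.normalizerMonoidHom n x * x⁻¹)).2 (h.com _ hn _ x.2)
        rw [map_mul, map_inv, mul_inv_eq_one] at e'
        rw [← e, Units.val_one, one_mulVec, e', hx, toAdd_ofAdd])
      rw [MonoidHom.mem_ker, MonoidHom.comp_apply, this, map_one]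
    rw [← index_ker] at c
    exact c.trans (index_dvd_of_le hk)
  obtain ⟨x, hx, xz, rfl, l, h1, h2⟩ := hX w hw
  obtain ⟨a, hg⟩ := IsCyclic.exists_ofOrder_eq_natCard (α := (ZMod p)ˣ)
  obtain ⟨n, hn, nz, w, wz, nx⟩ := h.exists_n hx xz h1 h2 a.mul_inv
  have e1 : (ρ ⟨n, hn⟩).1 *ᵥ (ψ ⟨x, hx⟩).toAdd = (a⁻¹).1 • (ψ ⟨x, hx⟩).toAdd := by
    rw [← ha, ← sm, show P.normalizerMonoidHom ⟨n, hn⟩ ⟨x, hx⟩ = ⟨x, hx⟩ ^ _ * ⟨w, h.zl wz⟩ from Subtype.ext nx,
      map_mul, (h0 ⟨w, h.zl wz⟩).2 wz, mul_one]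
  refine ⟨_, ⟨⟨n, hn⟩, rfl⟩, ?_, fun k hk => ?_⟩
  · rw [MonoidHom.comp_apply, pgl_mk_smul]
    refine E.injective ((OnePoint.equivProjectivization_smul _).trans ?_)
    change _ • E _ = _
    rw [hpt hx xz, Projectivization.smul_mk, Projectivization.mk_eq_mk_iff']
    exact ⟨_, e1.symm⟩
  · rw [← map_pow, MonoidHom.comp_apply, ← map_one ProjGenLinGroup.mk, eq_comm, ProjGenLinGroup.mk_eq_mk_iff] at hk
    obtain ⟨c, hc⟩ := hk
    have e2 : ∀ v, (ρ (⟨n, hn⟩ ^ k)).1 *ᵥ v = c.1 • v := fun v => by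
      rw [← hc]; ext i; simp [mulVec_diagonal]
    have e3 : ∀ j, (ρ (⟨n, hn⟩ ^ j)).1 *ᵥ (ψ ⟨x, hx⟩).toAdd = (a⁻¹).1 ^ j • (ψ ⟨x, hx⟩).toAdd := fun j => by
      induction j with
      | zero => rw [pow_zero, pow_zero, map_one, Units.val_one, one_mulVec, one_smul]
      | succ j ih => rw [pow_succ, map_mul, Units.val_mul, ← mulVec_mulVec, e1, mulVec_smul, ih, smul_smul, pow_succ']
    have e4 : c.1 = (a⁻¹).1 ^ k := smul_left_injective _ (ne hx xz) ((e2 _).symm.trans (e3 k))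
    have e5 : ∀ j, n ^ j * z * (n ^ j)⁻¹ = z ^ a.1.val ^ j := fun j => by
      induction j with
      | zero => simp
      | succ j ih => rw [show n ^ (j + 1) * z * (n ^ (j + 1))⁻¹ = n ^ j * (n * z * n⁻¹) * (n ^ j)⁻¹ by group, nz,
          ← conj_pow, ih, ← pow_mul, pow_succ]
    obtain ⟨u, hu, v, hv, uv⟩ := h.exists_nc
    obtain ⟨w1, z1, f1⟩ := dv ⟨u, hu⟩ _ c ((ha (⟨n, hn⟩ ^ k) _).trans (e2 _))
    obtain ⟨w2, z2, f2⟩ := dv ⟨v, hv⟩ _ c ((ha (⟨n, hn⟩ ^ k) _).trans (e2 _))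
    have f1 : n ^ k * u * (n ^ k)⁻¹ = u ^ c.1.val * w1 := f1
    have f2 : n ^ k * v * (n ^ k)⁻¹ = v ^ c.1.val * w2 := f2
    have f3 := h.com_sc hu hv z1 z2 c.1.val
    rw [zpow_natCast, zpow_natCast, ← f1, ← f2, ← conjugate_commutatorElement] at f3
    obtain ⟨i, hi⟩ := mem_zpowers_of_prime h.ord (h.com _ hu _ hv) uv
    have f4 : z ^ a.1.val ^ k = z ^ (c.1.val * c.1.val) := by
      rw [← e5, ← show _ = z from hi, ← conj_zpow, f3, ← zpow_natCast, ← _root_.zpow_mul, ← _root_.zpow_mul, mul_comm]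
      rfl
    rw [pow_eq_pow_iff_modEq, h.ord, ← ZMod.natCast_eq_natCast_iff] at f4
    push_cast at f4
    simp only [ZMod.natCast_zmod_val, e4] at f4
    rw [Nat.card_eq_fintype_card, ZMod.card_units] at hg
    rw [← hg, orderOf_dvd_iff_pow_eq_one, Units.ext_iff, Units.val_pow_eq_pow_val, Units.val_one]
    have f5 : (a.1 ^ k * (a⁻¹).1 ^ k) = 1 := by rw [← mul_pow, a.mul_inv, one_pow]
    rw [mul_comm, pow_mul]
    linear_combination (a.1 ^ k) ^ 2 * f4 + (a.1 ^ k * (a⁻¹).1 ^ k + 1) * f5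

theorem gen_eq {A : Subgroup G} (hA : Nat.card A = p ^ 2) (hz : z ∈ A) {x : G} (hx : x ∈ A) (xz : x ∉ zpowers z) :
    zpowers x ⊔ zpowers z = A := by
  have le : zpowers x ⊔ zpowers z ≤ A := sup_le (zpowers_le.2 hx) (zpowers_le.2 hz)
  obtain ⟨i, hi, e⟩ := (Nat.dvd_prime_pow hp.out).1 (hA ▸ card_dvd_of_le le)
  have lt : zpowers z < zpowers x ⊔ zpowers z := le_sup_right.lt_of_ne fun c => xz (c ▸ mem_sup_left (mem_zpowers x))
  have l2 : Nat.card (zpowers z) < Nat.card (zpowers x ⊔ zpowers z : Subgroup G) :=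
    (card_le_of_le lt.le).lt_of_ne fun c => lt.ne (eq_of_le_of_card_ge lt.le c.ge)
  rw [h.cz, e] at l2
  have : 1 < i := (Nat.pow_lt_pow_iff_right hp.out.one_lt).1 (by rwa [pow_one])
  exact eq_of_le_of_card_ge le (by rw [hA, e, show i = 2 by omega])

theorem z_mem {A : Subgroup G} (hA : Nat.card A = p ^ 2) (hP : A ≤ P) : z ∈ A := by
  by_contra hz
  obtain ⟨ρ, ψ, h0, hs, -⟩ := h.exists_rep
  have inj : Function.Injective (ψ.comp (inclusion hP)) := (injective_iff_map_eq_one _).2 fun a ha => by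
    by_contra c
    exact hz (zpowers_le.2 a.2 (mem_zpowers_of_prime h.ord ((h0 _).1 ha) fun e => c (Subtype.ext e)))
  have sj := (inj.bijective_of_nat_card_le (by simp [hA])).2
  have ab := IsPGroup.isMulCommutative_of_card_eq_prime_sq hA
  obtain ⟨x, hx, y, hy, e⟩ := h.exists_nc
  have k : ∀ x ∈ P, ∃ a ∈ A, ∃ w ∈ zpowers z, x = a ^ (1 : ℤ) * w := fun x hx => by
    obtain ⟨a, ha⟩ := sj (ψ ⟨x, hx⟩)
    exact ⟨a, a.2, _, (h0 ((inclusion hP a)⁻¹ * ⟨x, hx⟩)).1 (by rw [map_mul, map_inv, inv_mul_eq_one]; exact ha),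
      by simp⟩
  obtain ⟨a, ha, w, hw, rfl⟩ := k x hx
  obtain ⟨b, hb, w', hw', rfl⟩ := k y hy
  rw [h.com_sc (hP ha) (hP hb) hw hw', commutatorElement_eq_one_iff_mul_comm.2
    (congrArg Subtype.val (ab.is_comm.comm (⟨a, ha⟩ : A) ⟨b, hb⟩)), _root_.one_zpow] at e
  exact e rfl

theorem of_A {A : Subgroup G} (hA : Nat.card A = p ^ 2) (hP : A ≤ P)
    (hSL : ∀ φ : MulAut A, orderOf φ = p → ∃ g : G, ∀ a : A, (φ a : G) = g * (a : G) * g⁻¹) :
    ∃ x ∈ A, x ∉ zpowers z ∧ ∃ l, l * x * l⁻¹ = x ∧ l * z * l⁻¹ = z * x := by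
  have hz := h.z_mem hA hP
  obtain ⟨x, hx, xz⟩ : ∃ x ∈ A, x ∉ zpowers z := SetLike.not_le_iff_exists.1 fun c => by
    have := card_le_of_le c
    rw [hA, h.cz] at this
    nlinarith [hp.out.two_le]
  have ab := IsPGroup.isMulCommutative_of_card_eq_prime_sq hA
  letI : CommGroup A := { (inferInstance : Group A) with mul_comm := ab.is_comm.comm }
  have x1 : x ≠ 1 := fun c => xz (c ▸ one_mem _)
  let X : Subgroup A := zpowers ⟨x, hx⟩
  have gen : ∀ q : A ⧸ X, q ∈ zpowers ((⟨z, hz⟩ : A) : A ⧸ X) := fun q => by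
    obtain ⟨⟨a, ha⟩, rfl⟩ := QuotientGroup.mk_surjective q
    obtain ⟨_, ⟨i, rfl⟩, _, ⟨j, rfl⟩, rfl⟩ := (mem_sup_of_le_normalizer_right (H := zpowers x) (N := zpowers z)
      fun v hv => mem_normalizer_fintype fun w hw => by
        rw [(h.zc hw (hP (zpowers_le.2 hx hv))).eq, mul_inv_cancel_right]; exact hw).1 ((h.gen_eq hA hz hx xz).ge ha)
    refine ⟨j, ?_⟩
    change ((⟨z, hz⟩ : A) : A ⧸ X) ^ j = ((⟨x, hx⟩ ^ i * ⟨z, hz⟩ ^ j : A) : A ⧸ X)
    rw [QuotientGroup.mk_mul, (QuotientGroup.eq_one_iff _).2 (zpow_mem (mem_zpowers _) i), one_mul]; rfl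
  have ex : ∀ a : A, a ^ p = 1 := fun a => Subtype.ext (h.exp _ (hP a.2))
  have z1 : ((⟨z, hz⟩ : A) : A ⧸ X) ≠ 1 := fun c => by
    obtain ⟨i, hi⟩ := (QuotientGroup.eq_one_iff _).1 c
    exact xz (mem_zpowers_of_prime (orderOf_eq_prime (h.exp x (hP hx)) x1) ⟨i, congrArg Subtype.val hi⟩ h.z1)
  have od : orderOf (⟨x, hx⟩ : A) ∣ orderOf ((⟨z, hz⟩ : A) : A ⧸ X) := by
    rw [orderOf_eq_prime (show ((⟨z, hz⟩ : A) : A ⧸ X) ^ p = 1 by rw [← QuotientGroup.mk_pow, ex]; rfl) z1]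
    exact orderOf_dvd_of_pow_eq_one (ex _)
  let χ := (monoidHomOfForallMemZpowers gen od).comp (QuotientGroup.mk' X)
  have c1 : χ ⟨z, hz⟩ = ⟨x, hx⟩ := monoidHomOfForallMemZpowers_apply_gen gen od
  have c2 : ∀ a ∈ X, χ a = 1 := fun a ha => by
    change monoidHomOfForallMemZpowers gen od (a : A ⧸ X) = 1
    rw [(QuotientGroup.eq_one_iff _).2 ha, map_one]
  have c3 : ∀ a, χ (χ a) = 1 := fun a => c2 _ (by
    obtain ⟨i, hi⟩ := gen a
    change monoidHomOfForallMemZpowers gen od (a : A ⧸ X) ∈ X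
    rw [← hi, map_zpow, monoidHomOfForallMemZpowers_apply_gen]; exact zpow_mem (mem_zpowers _) i)
  let φ : MulAut A :=
    { toFun := fun a => a * χ a
      invFun := fun a => a * (χ a)⁻¹
      left_inv := fun a => by simp [c3]
      right_inv := fun a => by simp [c3]
      map_mul' := fun a b => by rw [map_mul, mul_mul_mul_comm] }
  have f1 : ∀ a, φ a = a * χ a := fun _ => rfl
  have f2 : ∀ (k : ℕ) a, (φ ^ k) a = a * χ a ^ k := fun k a => by
    induction k with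
    | zero => simp
    | succ k ih => rw [pow_succ', MulAut.mul_apply, ih, f1, map_mul, map_pow, c3, one_pow, mul_one, pow_succ, mul_assoc]
  obtain ⟨l, hl⟩ := hSL φ (orderOf_eq_prime (MulEquiv.ext fun a => by rw [f2, ex, mul_one]; rfl) fun c => by
    have := f1 ⟨z, hz⟩
    rw [c, c1, MulAut.one_apply, left_eq_mul] at this
    exact x1 (congrArg Subtype.val this))
  refine ⟨x, hx, xz, l, ?_, ?_⟩
  · rw [← hl ⟨x, hx⟩, f1, c2 _ (mem_zpowers _), mul_one]
  · rw [← hl ⟨z, hz⟩, f1, c1]; rfl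

theorem of_conj {x g : G} (hx : x ∈ P) (xz : x ∉ zpowers z) (hg : g * x * g⁻¹ = z) :
    ∃ l, l * x * l⁻¹ = x ∧ l * z * l⁻¹ = z * x := by
  have zz := mem_zpowers z
  have c : Commute x z := h.zc zz hx
  obtain ⟨k, hk, e⟩ := (h.syl.mono (K := centralizer {z}) (fun u hu => mem_centralizer_singleton_iff.2 (h.zc zz hu).eq)
    le_top).exists_le_cj (P := zpowers (g * z * g⁻¹)) (isPGroup_zpowers_of_pow (k := 1)
      (by rw [pow_one, conj_pow, h.exp z h.zP]; simp)) (zpowers_le.2 (mem_centralizer_singleton_iff.2 (by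
        conv_lhs => arg 2; rw [← hg]
        conv_rhs => arg 1; rw [← hg]
        rw [conj_mul, conj_mul, c.eq])))
  obtain ⟨y, hy, e⟩ := e (mem_zpowers _)
  have e : k * y * k⁻¹ = g * z * g⁻¹ := e
  have k1 : k * z = z * k := mem_centralizer_singleton_iff.1 hk
  have e1 : g⁻¹ * k * z * (g⁻¹ * k)⁻¹ = x := by
    rw [show g⁻¹ * k * z * (g⁻¹ * k)⁻¹ = g⁻¹ * (k * z * k⁻¹) * g by group, k1, mul_inv_cancel_right, ← hg]; group
  have e2 : g⁻¹ * k * y * (g⁻¹ * k)⁻¹ = z := by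
    rw [show g⁻¹ * k * y * (g⁻¹ * k)⁻¹ = g⁻¹ * (k * y * k⁻¹) * g by group, e]; group
  obtain ⟨u, hu, h3⟩ := h.exists_u hy fun ⟨i, hi⟩ => xz (mem_zpowers_of_prime (orderOf_eq_prime (h.exp x hx)
    fun c => xz (c ▸ one_mem _)) ⟨i, by rw [← e2, ← hi, ← e1]; exact conj_zpow⟩ h.z1)
  refine ⟨g⁻¹ * k * u * (g⁻¹ * k)⁻¹, ?_, ?_⟩
  · conv_lhs => rw [← e1]
    rw [conj_inv, conj_mul, conj_mul, (h.zc zz hu).eq, mul_inv_cancel_right, e1]
  · conv_lhs => rw [← e2]
    rw [conj_inv, conj_mul, conj_mul, h3, ← conj_mul, e1, e2]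

end XS

theorem exists_xs (P : Sylow p G) (hE : Cfsg.IsExtraspecial p P) (hcard : Nat.card P = p ^ 3)
    (hexp : Monoid.exponent P = p) : ∃ z, XS p (P : Subgroup G) z := by
  obtain ⟨⟨-, -, hc⟩, hz⟩ := hE
  obtain ⟨z, hg⟩ := (isCyclic_of_prime_card hz).exists_generator
  have cen : (P : Subgroup G) ⊓ centralizer (P : Set G) = zpowers (z.1 : G) := le_antisymm (fun w hw => by
    obtain ⟨i, hi⟩ := hg ⟨⟨w, hw.1⟩, mem_center_iff.2 fun u => Subtype.ext (hw.2 u u.2)⟩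
    exact ⟨i, congrArg (fun a => (a.1 : G)) hi⟩)
    (zpowers_le.2 ⟨z.1.2, fun u hu => congrArg Subtype.val (mem_center_iff.1 z.2 ⟨u, hu⟩)⟩)
  refine ⟨z.1, isSyl_sylow P, fun u hu => ?_, hcard, fun c => ?_, cen, fun u hu v hv => cen.le ?_⟩
  · exact congrArg Subtype.val (hexp ▸ Monoid.pow_exponent_eq_one (⟨u, hu⟩ : P))
  · have : z = 1 := Subtype.ext (Subtype.ext c)
    have e := orderOf_eq_card_of_forall_mem_zpowers hg
    rw [this, orderOf_one, hz] at e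
    exact hp.out.one_lt.ne e
  · have := hc.le (commutator_mem_commutator (mem_top (⟨u, hu⟩ : P)) (mem_top ⟨v, hv⟩))
    exact ⟨⁅(⟨u, hu⟩ : P), (⟨v, hv⟩ : P)⁆.2, fun w hw => congrArg Subtype.val (mem_center_iff.1 this ⟨w, hw⟩)⟩

end H18.XP
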